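import Cfsg.Agent.SmallOrder.O5040.Sieve
import Cfsg.Agent.SmallOrder.Exclude
import Cfsg.Agent.SmallOrder.BlockSieve
import Cfsg.Agent.SmallOrder.InvolutionCount
import Cfsg.Agent.Chars.SelfCentralising

/-!
A simple group of order 5040 has no self-centralising element of order 7 conjugate to all its
nontrivial powers.
-/

set_option autoImplicit false

namespace Cfsg.Agent.SmallOrder.O5040

open Cfsg Cfsg.Agent
open scoped ComplexConjugate

universe u

variable {G : Type u} [Group G] [Fintype G]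

/-- The bounds on a character at an involution inverting an element of order 7. -/
theorem dihedral_bounds {x t : G} (hx : orderOf x = 7) (ht : orderOf t = 2) (hinv : t * x * t⁻¹ = x⁻¹)
    (χ : IrrCharacter G) {u a : ℤ} (hu : ∀ i : ℕ, ¬ 7 ∣ i → (χ : G → ℂ) (x ^ i) = u)
    (ha : (χ : G → ℂ) t = a) :
    7 * a ≤ (charDegree (χ : G → ℂ) : ℤ) + 6 * u ∧ -(7 * a) ≤ (charDegree (χ : G → ℂ) : ℤ) + 6 * u := by
  classical
  have h2 : t * t = 1 := by rw [← sq, ← ht]; exact pow_orderOf_eq_one t
  have hti : t⁻¹ = t := inv_eq_of_mul_eq_one_right h2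
  set P := Subgroup.zpowers x with hP
  have htP : t ∉ P := fun h => by
    have hd := Subgroup.orderOf_dvd_natCard _ h
    rw [ht, hP, Nat.card_zpowers, hx] at hd
    norm_num at hd
  have hnorm : ∀ y ∈ P, t * y * t ∈ P := by
    intro y hy
    obtain ⟨k, rfl⟩ := Subgroup.mem_zpowers_iff.1 hy
    refine Subgroup.mem_zpowers_iff.2 ⟨-k, ?_⟩
    calc x ^ (-k) = (x⁻¹) ^ k := by rw [inv_zpow, zpow_neg]
      _ = (t * x * t⁻¹) ^ k := by rw [hinv]
      _ = t * x ^ k * t := by rw [conj_zpow, hti]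
  let H : Subgroup G :=
    { carrier := {g | g ∈ P ∨ t * g ∈ P}
      one_mem' := Or.inl P.one_mem
      mul_mem' := by
        intro a b ha hb
        rcases ha with ha | ha <;> rcases hb with hb | hb
        · exact Or.inl (P.mul_mem ha hb)
        · refine Or.inr ?_
          have := P.mul_mem (hnorm a ha) hb
          rwa [show t * a * t * (t * b) = t * a * (t * t) * b by group, h2,
            show t * a * 1 * b = t * (a * b) by group] at this
        · exact Or.inr (by rw [← mul_assoc]; exact P.mul_mem ha hb)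
        · refine Or.inl ?_
          have := P.mul_mem (hnorm _ ha) hb
          rwa [show t * (t * a) * t * (t * b) = (t * t) * a * (t * t) * b by group, h2, one_mul, mul_one] at this
      inv_mem' := by
        intro a ha
        rcases ha with ha | ha
        · exact Or.inl (P.inv_mem ha)
        · refine Or.inr ?_
          have := hnorm _ (P.inv_mem ha)
          rwa [mul_inv_rev, hti, show t * (a⁻¹ * t) * t = t * a⁻¹ * (t * t) by group, h2, mul_one] at this }
  haveI : Fintype H := Fintype.ofFinite H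
  have hPH : ∀ g : G, g ∈ P → g ∈ H := fun g hg => Or.inl hg
  have htPH : ∀ g : G, g ∈ P → t * g ∈ H := fun g hg => Or.inr (by rwa [← mul_assoc, h2, one_mul])
  let e : Fin 7 × Bool → H := fun q =>
    if q.2 then ⟨t * x ^ (q.1 : ℕ), htPH _ (Subgroup.npow_mem_zpowers x _)⟩
    else ⟨x ^ (q.1 : ℕ), hPH _ (Subgroup.npow_mem_zpowers x _)⟩
  have hbij : Function.Bijective e := by
    have hinj : ∀ i j : Fin 7, x ^ (i : ℕ) = x ^ (j : ℕ) → i = j := fun i j h => by
      have h' := pow_eq_pow_iff_modEq.1 h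
      rw [hx] at h'
      exact Fin.ext (h'.eq_of_lt_of_lt i.2 j.2)
    refine ⟨fun ⟨i, b⟩ ⟨j, c⟩ h => ?_, fun ⟨g, hg⟩ => ?_⟩
    · cases b <;> cases c <;> simp [e] at h
      · rw [hinj i j h]
      · exfalso; apply htP
        have : t = x ^ (i : ℕ) * (x ^ (j : ℕ))⁻¹ := by rw [h, mul_inv_cancel_right]
        rw [this]; exact P.mul_mem (Subgroup.npow_mem_zpowers x _) (P.inv_mem (Subgroup.npow_mem_zpowers x _))
      · exfalso; apply htP
        have : t = x ^ (j : ℕ) * (x ^ (i : ℕ))⁻¹ := by rw [← h, mul_inv_cancel_right]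
        rw [this]; exact P.mul_mem (Subgroup.npow_mem_zpowers x _) (P.inv_mem (Subgroup.npow_mem_zpowers x _))
      · rw [hinj i j h]
    · have hfin : ∀ y ∈ P, ∃ i : Fin 7, x ^ (i : ℕ) = y := by
        intro y hy
        obtain ⟨n, hn⟩ := (Submonoid.mem_powers_iff _ _).1 (mem_powers_iff_mem_zpowers.2 hy)
        refine ⟨⟨n % 7, Nat.mod_lt _ (by norm_num)⟩, ?_⟩
        rw [← hn]
        show x ^ (n % 7) = x ^ n
        conv_rhs => rw [← pow_mod_orderOf, hx]
      rcases hg with hg | hg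
      · obtain ⟨i, hi⟩ := hfin g hg
        exact ⟨(i, false), Subtype.ext (by simpa [e] using hi)⟩
      · obtain ⟨i, hi⟩ := hfin _ hg
        refine ⟨(i, true), Subtype.ext ?_⟩
        simp only [e, if_true, hi]
        rw [← mul_assoc, h2, one_mul]
  have hcard : Nat.card H = 14 := by
    rw [← Nat.card_congr (Equiv.ofBijective e hbij)]; simp
  -- the sign character of `H`
  let sg : H →* ℂˣ :=
    { toFun := fun h => if (h : G) ∈ P then 1 else -1
      map_one' := by simp [P.one_mem]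
      map_mul' := by
        rintro ⟨a, ha⟩ ⟨b, hb⟩
        by_cases haP : a ∈ P
        · by_cases hbP : b ∈ P
          · simp [haP, hbP, P.mul_mem haP hbP]
          · have : a * b ∉ P := fun h => hbP (by simpa using P.mul_mem (P.inv_mem haP) h)
            simp [haP, hbP, this]
        · by_cases hbP : b ∈ P
          · have : a * b ∉ P := fun h => haP (by simpa using P.mul_mem h (P.inv_mem hbP))
            simp [haP, hbP, this]
          · have ha' : t * a ∈ P := ha.resolve_left haP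
            have hb' : t * b ∈ P := hb.resolve_left hbP
            have : a * b ∈ P := by
              have := P.mul_mem (hnorm _ ha') hb'
              rwa [show t * (t * a) * t * (t * b) = (t * t) * a * (t * t) * b by group, h2, one_mul,
                mul_one] at this
            simp [haP, hbP, this] }
  have htx : ∀ i : ℕ, (χ : G → ℂ) (t * x ^ i) = a := by
    intro i
    rw [← ha]
    have hconj : x ^ (4 * i) * (t * x ^ i) * (x ^ (4 * i))⁻¹ = t := by
      have e1 : x ^ (4 * i) * t = t * (x ^ (4 * i))⁻¹ := by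
        have e2 := SelfCentDeg.inverts_pow t hinv (4 * i)
        rw [hti] at e2
        calc x ^ (4 * i) * t = t * (t * x ^ (4 * i) * t) := by rw [mul_assoc t, ← mul_assoc t t, h2, one_mul]
          _ = _ := by rw [e2]
      have h7 : (x ^ (4 * i))⁻¹ * x ^ i * (x ^ (4 * i))⁻¹ = 1 := by
        have : x ^ (4 * i) * x ^ (4 * i) = x ^ i := by
          rw [← pow_add, pow_eq_pow_iff_modEq, hx]
          exact (Nat.ModEq.refl _).trans (by show (4 * i + 4 * i) % 7 = i % 7; omega)
        rw [← this]; group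
      calc x ^ (4 * i) * (t * x ^ i) * (x ^ (4 * i))⁻¹ = x ^ (4 * i) * t * (x ^ i * (x ^ (4 * i))⁻¹) := by group
        _ = t * ((x ^ (4 * i))⁻¹ * x ^ i * (x ^ (4 * i))⁻¹) := by rw [e1]; group
        _ = t := by rw [h7, mul_one]
    conv_rhs => rw [← hconj]
    exact (Chars.isClassFunction_irr χ (t * x ^ i) (x ^ (4 * i))).symm
  have key : ∀ l : H →* ℂˣ, ∃ n : ℕ, ∑ h : H, (χ : G → ℂ) h * (l h : ℂ) = (14 : ℂ) * n := by
    intro l
    obtain ⟨n, hn⟩ := Chars.exists_classInner_eq_nat
      (Chars.isCharacter_mul (Chars.isCharacter_restrict (Chars.irr_isCharacter χ) H) (Chars.isCharacter_hom l))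
      (Chars.isCharacter_one (G := H))
    refine ⟨n, ?_⟩
    have h : (Nat.card H : ℂ)⁻¹ * ∑ h : H, (χ : G → ℂ) h * (l h : ℂ) = n := by
      rw [← hn, Chars.classInner_def]; simp
    rw [← h, hcard, Nat.cast_ofNat, ← mul_assoc, mul_inv_cancel₀ (by norm_num), one_mul]
  have hsum : ∀ (l : H →* ℂˣ) (c : ℤ), (∀ h : H, (h : G) ∈ P → (l h : ℂ) = 1) →
      (∀ h : H, (h : G) ∉ P → (l h : ℂ) = c) →
      ∑ h : H, (χ : G → ℂ) h * (l h : ℂ) = ((charDegree (χ : G → ℂ) : ℤ) + 6 * u + 7 * a * c : ℤ) := by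
    intro l c hl1 hl2
    rw [← Fintype.sum_bijective e hbij _ _ fun _ => rfl, Fintype.sum_prod_type]
    have e0 : ∀ i : Fin 7, (χ : G → ℂ) (e (i, false)) * (l (e (i, false)) : ℂ) = (χ : G → ℂ) (x ^ (i : ℕ)) := by
      intro i
      rw [hl1 _ (by simp [e, P]), mul_one]
      simp [e]
    have e1 : ∀ i : Fin 7, (χ : G → ℂ) (e (i, true)) * (l (e (i, true)) : ℂ) = (a : ℂ) * c := by
      intro i
      rw [hl2 _ (by
        simp only [e, if_true]
        intro h
        exact htP (by simpa using P.mul_mem h (P.inv_mem (Subgroup.npow_mem_zpowers x (i : ℕ)))))]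
      simp only [e, if_true, htx]
    simp only [Fintype.sum_bool, e0, e1, Fin.sum_univ_seven]
    simp only [Fin.val_zero, pow_zero, Fin.isValue, Fin.coe_ofNat_eq_mod, Nat.reduceMod]
    rw [hu 1 (by norm_num), hu 2 (by norm_num), hu 3 (by norm_num), hu 4 (by norm_num), hu 5 (by norm_num),
      hu 6 (by norm_num), (Blocks.charDegree_eq χ.2).1]
    push_cast
    ring
  obtain ⟨n, hn⟩ := key 1
  rw [hsum 1 1 (fun _ _ => by simp) (fun _ _ => by simp)] at hn
  obtain ⟨m, hm⟩ := key sg
  rw [hsum sg (-1) (fun h hh => by simp [sg, hh]) (fun h hh => by simp [sg, hh])] at hm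
  have hn' : (charDegree (χ : G → ℂ) : ℤ) + 6 * u + 7 * a * 1 = 14 * (n : ℤ) := by exact_mod_cast hn
  have hm' : (charDegree (χ : G → ℂ) : ℤ) + 6 * u + 7 * a * -1 = 14 * (m : ℤ) := by exact_mod_cast hm
  constructor <;> omega

set_option maxHeartbeats 1000000 in
/-- No simple group of order 5040 has a self-centralising element of order 7 with normaliser of order 42. -/
theorem false_of_selfcent [IsSimpleGroup G] [Fact (Nat.Prime 7)] (h : Nat.card G = 5040) {x : G}
    (hx : orderOf x = 7) (hC : Subgroup.centralizer ({x} : Set G) = Subgroup.zpowers x)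
    (hall : ∀ i : ℕ, ¬ 7 ∣ i → IsConj x (x ^ i)) : False := by
  classical
  have hG : ¬ IsMulCommutative G := SmallOrder.not_comm_of_not_prime (by rw [h]; norm_num)
  have hna : ¬ ∀ a b : G, a * b = b * a := fun hc => hG ⟨⟨hc⟩⟩
  have hcl : ∀ (χ : IrrCharacter G) {a b : G}, IsConj a b → (χ : G → ℂ) a = (χ : G → ℂ) b := by
    intro χ a b hab
    obtain ⟨c, rfl⟩ := isConj_iff.1 hab
    exact (Chars.isClassFunction_irr χ a c).symm
  have hD : ∀ χ : IrrCharacter G, (χ : G → ℂ) 1 = (charDegree (χ : G → ℂ) : ℂ) :=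
    fun χ => (Blocks.charDegree_eq χ.2).1
  have hint : ∀ χ : IrrCharacter G, ∃ u : ℤ, (χ : G → ℂ) x = u ∧
      (7 : ℤ) ∣ (charDegree (χ : G → ℂ) : ℤ) - u := by
    intro χ
    obtain ⟨m, hm⟩ := SmallOrder.BlockSieve.sum_powers hx χ
    simp only [Finset.sum_range_succ, Finset.sum_range_zero, pow_zero, pow_one, zero_add, hD,
      ← hcl χ (hall 2 (by norm_num)), ← hcl χ (hall 3 (by norm_num)), ← hcl χ (hall 4 (by norm_num)),
      ← hcl χ (hall 5 (by norm_num)), ← hcl χ (hall 6 (by norm_num))] at hm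
    have h' : ((6 : ℕ) : ℂ) * (χ : G → ℂ) x = ((7 * (m : ℤ) - charDegree (χ : G → ℂ) : ℤ) : ℂ) := by
      push_cast
      push_cast at hm
      linear_combination hm
    obtain ⟨u, hu⟩ := SmallOrder.BlockSieve.exists_int
      (Chars.isIntegral_of_isCharacter (Chars.irr_isCharacter χ) x) (by norm_num) h'
    refine ⟨u, hu, ?_⟩
    rw [hu] at h'
    have h'' : 6 * u = 7 * (m : ℤ) - charDegree (χ : G → ℂ) := by exact_mod_cast h'
    omega
  choose u hu hu7 using hint
  set D : IrrCharacter G → ℕ := fun χ => charDegree (χ : G → ℂ) with hDdef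
  replace hu7 : ∀ χ, (7 : ℤ) ∣ (D χ : ℤ) - u χ := hu7
  replace hD : ∀ χ : IrrCharacter G, (χ : G → ℂ) 1 = (D χ : ℂ) := hD
  -- an inverting involution
  obtain ⟨g, hg⟩ := isConj_iff.1 (hall 6 (by norm_num))
  have hx6 : x ^ 6 = x⁻¹ := by
    refine eq_inv_of_mul_eq_one_left ?_
    rw [← pow_succ]; exact orderOf_dvd_iff_pow_eq_one.1 (by rw [hx])
  rw [hx6] at hg
  have hg2 : g * g ∈ Subgroup.centralizer ({x} : Set G) := by
    rw [Subgroup.mem_centralizer_singleton_iff]
    calc g * g * x = g * (g * x * g⁻¹) * g := by group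
      _ = g * x⁻¹ * g := by rw [hg]
      _ = (g * x * g⁻¹)⁻¹ * (g * g) := by group
      _ = x * (g * g) := by rw [hg, inv_inv]
  set t := g ^ 7 with ht'
  have hg4 : g * g * x * (g * g)⁻¹ = x := by
    rw [Subgroup.mem_centralizer_singleton_iff.1 hg2, mul_inv_cancel_right]
  have hti : t * x * t⁻¹ = x⁻¹ := by
    calc t * x * t⁻¹ = (g * g) * ((g * g) * ((g * g) * (g * x * g⁻¹) * (g * g)⁻¹) * (g * g)⁻¹) * (g * g)⁻¹ := by
          rw [ht', show g ^ 7 = g * g * (g * g) * (g * g) * g by simp [pow_succ, mul_assoc]]; group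
      _ = x⁻¹ := by rw [hg, ← conj_inv, hg4, ← conj_inv, hg4, ← conj_inv, hg4]
  have hxne : x⁻¹ ≠ x := fun e => by
    have hsq : x ^ 2 = 1 := by rw [sq]; nth_rw 1 [← e]; rw [inv_mul_cancel]
    have := Nat.le_of_dvd (by norm_num) (hx ▸ orderOf_dvd_of_pow_eq_one hsq)
    omega
  have ht2 : t ^ 2 = 1 := by
    rw [hC] at hg2
    have hd' := Subgroup.orderOf_dvd_natCard _ hg2
    rw [Nat.card_zpowers, hx] at hd'
    rw [ht', ← pow_mul, show 7 * 2 = 2 * 7 from rfl, pow_mul, pow_two]
    exact orderOf_dvd_iff_pow_eq_one.1 hd'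
  have ht : orderOf t = 2 := orderOf_eq_prime ht2 fun e => hxne (by rw [← hti, e]; group)
  have htt : t * t = 1 := by rw [← sq]; exact ht2
  choose k hk hv using fun χ => Chars.SelfCentralising.apply_involution hna χ ht2
  set a : IrrCharacter G → ℤ := fun χ => (D χ : ℤ) - 4 * (k χ : ℤ) with ha'
  have ha : ∀ χ : IrrCharacter G, (χ : G → ℂ) t = a χ := fun χ => by rw [hv χ, ha']; push_cast; rfl
  set c := Nat.card (Subgroup.centralizer ({t} : Set G)) with hc
  have hc1 : Nat.card (Subgroup.centralizer ({x} : Set G)) = 7 := by rw [hC, Nat.card_zpowers, hx]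
  have hcol : ∀ y : G, ∑ χ, (u χ : ℂ) * (χ : G → ℂ) y = if IsConj x y then 7 else 0 := by
    intro y
    have h' := congrArg (starRingEnd ℂ) (Chars.column_orth x y)
    simp only [map_sum, map_mul, Complex.conj_conj, hu, map_intCast] at h'
    rw [h']
    split_ifs
    · rw [hc1]; exact map_ofNat (starRingEnd ℂ) 7
    · simp
  have hnot : ∀ y : G, orderOf y ≠ 7 → ¬ IsConj x y := fun y hy hcj => by
    obtain ⟨w, hw⟩ := isConj_iff.1 hcj
    have := MulEquiv.orderOf_eq (MulAut.conj w) x
    rw [MulAut.conj_apply, hw, hx] at this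
    exact hy this
  have hsq : ∑ χ, u χ ^ 2 = 7 := by
    have h' := hcol x
    simp only [hu, if_pos (IsConj.refl x), ← sq] at h'
    exact_mod_cast h'
  have htot : ∑ χ, u χ * (D χ : ℤ) = 0 := by
    have h' := hcol 1
    rw [if_neg (hnot 1 (by rw [orderOf_one]; norm_num))] at h'
    simp only [hD] at h'
    exact_mod_cast h'
  have hta : ∑ χ, u χ * a χ = 0 := by
    have h' := hcol t
    rw [if_neg (hnot t (by omega))] at h'
    simp only [ha] at h'
    exact_mod_cast h'
  have hts : ∑ χ, a χ ^ 2 = (c : ℤ) := by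
    have h' := Chars.column_orth t t
    simp only [ha, map_intCast, if_pos (IsConj.refl t)] at h'
    rw [← hc] at h'
    simp only [sq]
    exact_mod_cast h'
  -- the structure constant
  have hJc : ((OddChar.clOf t).card : ℤ) * c = 5040 := by
    have : (OddChar.clOf t).card * c = 5040 := by
      rw [hc, OddChar.card_clOf, Subgroup.index_mul_card, h]
    exact_mod_cast this
  have hone : ∀ χ : IrrCharacter G, (D χ : ℤ) ∣ 720 ∨ u χ = 0 := by
    intro χ
    by_cases h7 : 7 ∣ D χ
    · right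
      have hb : u χ ^ 2 ≤ 7 := hsq ▸ Finset.single_le_sum (f := fun ψ => u ψ ^ 2)
        (fun ψ _ => sq_nonneg _) (Finset.mem_univ χ)
      have : u χ ≤ 2 := by nlinarith
      have : -2 ≤ u χ := by nlinarith
      have := hu7 χ
      have : (7 : ℤ) ∣ (D χ : ℤ) := by exact_mod_cast h7
      omega
    · left
      have hd : D χ ∣ 720 := by
        have hd' : D χ ∣ 7 * 720 := by rw [show 7 * 720 = 5040 from rfl, ← h]; exact Blocks.charDegree_dvd χ.2
        exact (Nat.Coprime.dvd_of_dvd_mul_left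
          (((Nat.Prime.coprime_iff_not_dvd (by norm_num)).2 h7).symm) hd')
      exact_mod_cast hd
  have hS : ∑ χ, u χ * (a χ * a χ) * ((720 : ℤ) / (D χ : ℤ)) = (c : ℤ) * c := by
    have hyc : ∀ y ∈ (OddChar.clOf t).image (t * ·), ∑ χ, (u χ : ℂ) * (χ : G → ℂ) y =
        if IsConj x y then 7 else 0 := fun y _ => hcol y
    have hcount : ((OddChar.clOf t).image (t * ·) |>.filter fun y => IsConj x y).card = c := by
      have hI := SelfCentDeg.involution_count_three hx hC (by norm_num) ht hti (1 : ZMod 7) one_ne_zero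
      rw [SelfCentDeg.pow_val_one hx, ← hc] at hI
      rw [← hI, Nat.card_eq_fintype_card, Fintype.card_subtype]
      congr 1
      ext y
      simp only [Finset.mem_filter, Finset.mem_univ, true_and]
      exact and_congr_right fun _ => ⟨IsConj.symm, IsConj.symm⟩
    have h1 : ∑ χ, (u χ : ℂ) * ∑ y ∈ OddChar.clOf t, (χ : G → ℂ) (t * y) = 7 * (c : ℂ) := by
      calc ∑ χ, (u χ : ℂ) * ∑ y ∈ OddChar.clOf t, (χ : G → ℂ) (t * y)
          = ∑ χ, (u χ : ℂ) * ∑ y ∈ (OddChar.clOf t).image (t * ·), (χ : G → ℂ) y := by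
            refine Finset.sum_congr rfl fun χ _ => ?_
            rw [Finset.sum_image fun a _ b _ e => mul_left_cancel e]
        _ = ∑ y ∈ (OddChar.clOf t).image (t * ·), ∑ χ, (u χ : ℂ) * (χ : G → ℂ) y := by
            simp only [Finset.mul_sum]; rw [Finset.sum_comm]
        _ = 7 * (c : ℂ) := by
            rw [Finset.sum_congr rfl hyc, ← Finset.sum_filter, Finset.sum_const, hcount, nsmul_eq_mul, mul_comm]
    have h2 : ∀ χ : IrrCharacter G, ((u χ * (a χ * a χ) * ((720 : ℤ) / (D χ : ℤ)) : ℤ) : ℂ) * ((OddChar.clOf t).card : ℂ) =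
        720 * ((u χ : ℂ) * ∑ y ∈ OddChar.clOf t, (χ : G → ℂ) (t * y)) := by
      intro χ
      rcases hone χ with hd | h0
      · have e := OddChar.irr_class_sum_mul χ.2 t t
        rw [hD, ha] at e
        obtain ⟨q, hq⟩ := hd
        have hDne : (D χ : ℤ) ≠ 0 := by
          intro h0; rw [h0, zero_mul] at hq; norm_num at hq
        have hdiv : (720 : ℤ) / (D χ : ℤ) = q := by rw [hq, Int.mul_ediv_cancel_left _ hDne]
        rw [hdiv]
        have hqC : (720 : ℂ) = (D χ : ℂ) * (q : ℂ) := by exact_mod_cast hq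
        rw [hqC]
        push_cast
        linear_combination (-((u χ : ℂ) * (q : ℂ))) * e
      · simp [h0]
    have h3 : ((∑ χ, u χ * (a χ * a χ) * ((720 : ℤ) / (D χ : ℤ)) : ℤ) : ℂ) * ((OddChar.clOf t).card : ℂ) =
        720 * (7 * (c : ℂ)) := by
      rw [← h1, Int.cast_sum, Finset.sum_mul, Finset.mul_sum]
      exact Finset.sum_congr rfl fun χ _ => h2 χ
    have h4 : (∑ χ, u χ * (a χ * a χ) * ((720 : ℤ) / (D χ : ℤ))) * ((OddChar.clOf t).card : ℤ) =
        720 * (7 * (c : ℤ)) := by exact_mod_cast h3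
    have hcard0 : ((OddChar.clOf t).card : ℤ) ≠ 0 := fun e => by rw [e, zero_mul] at hJc; norm_num at hJc
    refine mul_right_cancel₀ hcard0 ?_
    rw [h4, mul_assoc, mul_comm (c : ℤ) ((OddChar.clOf t).card : ℤ), hJc]
    ring
  -- the trivial character
  have hu1 : u (Blocks.oneChar G) = 1 := by
    have := hu (Blocks.oneChar G)
    rw [Blocks.coe_oneChar] at this
    simp only at this
    exact_mod_cast this.symm
  have hD1 : D (Blocks.oneChar G) = 1 := by
    have := hD (Blocks.oneChar G)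
    rw [Blocks.coe_oneChar] at this
    simp only at this
    exact_mod_cast this.symm
  have ha1 : a (Blocks.oneChar G) = 1 := by
    have := ha (Blocks.oneChar G)
    rw [Blocks.coe_oneChar] at this
    simp only at this
    exact_mod_cast this.symm
  set T := (Finset.univ.erase (Blocks.oneChar G)).filter (fun χ : IrrCharacter G => u χ ≠ 0) with hT
  have hsplit : ∀ F : IrrCharacter G → ℤ, (∀ χ, u χ = 0 → F χ = 0) →
      ∑ χ, F χ = F (Blocks.oneChar G) + ∑ χ ∈ T, F χ := by
    intro F hF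
    rw [← Finset.add_sum_erase _ _ (Finset.mem_univ (Blocks.oneChar G)), hT, Finset.sum_filter]
    congr 1
    exact Finset.sum_congr rfl fun χ _ => by split_ifs with hh <;> [rfl; exact hF χ (not_not.1 hh)]
  have hT6 : ∑ χ ∈ T, u χ * u χ = 6 := by
    have := hsplit (fun χ => u χ * u χ) (fun χ h => by simp [h])
    simp only [hu1, ← sq] at this ⊢
    rw [hsq] at this
    linarith
  have hTD : ∑ χ ∈ T, u χ * (D χ : ℤ) = -1 := by
    have := hsplit (fun χ => u χ * (D χ : ℤ)) (fun χ h => by simp [h])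
    simp only [htot, hu1, hD1, Nat.cast_one] at this
    linarith
  have hTa : ∑ χ ∈ T, u χ * a χ = -1 := by
    have := hsplit (fun χ => u χ * a χ) (fun χ h => by simp [h])
    simp only [hta, hu1, ha1] at this
    linarith
  have hTS : (c : ℤ) * c = 720 + ∑ χ ∈ T, u χ * (a χ * a χ) * ((720 : ℤ) / (D χ : ℤ)) := by
    have := hsplit (fun χ => u χ * (a χ * a χ) * ((720 : ℤ) / (D χ : ℤ))) (fun χ h => by simp [h])
    simp only [hS, hu1, hD1, ha1, Nat.cast_one] at this
    rw [this]; norm_num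
  have hTt : 1 + ∑ χ ∈ T, a χ * a χ ≤ (c : ℤ) := by
    rw [← hts, ← Finset.add_sum_erase _ _ (Finset.mem_univ (Blocks.oneChar G)), ha1]
    refine add_le_add (by norm_num) ?_
    simp only [sq]
    exact Finset.sum_le_sum_of_subset_of_nonneg (Finset.filter_subset _ _) fun χ _ _ => mul_self_nonneg _
  have hDsq : ∑ χ, (D χ : ℤ) ^ 2 = 5040 := by
    have h' := Chars.sum_sq_apply_one (G := G)
    simp only [hD, h] at h'
    exact_mod_cast h'
  -- the candidates
  have hmem : ∀ χ ∈ T, (u χ, (D χ : ℤ), a χ) ∈ cands := by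
    intro χ hχ
    obtain ⟨hne, hu0⟩ := Finset.mem_filter.1 hχ
    have hub : u χ * u χ ≤ 6 := hT6 ▸ Finset.single_le_sum (f := fun ψ => u ψ * u ψ)
      (fun ψ _ => mul_self_nonneg _) hχ
    have hu2 : u χ ≤ 2 := by nlinarith
    have hu2' : -2 ≤ u χ := by nlinarith
    have hpos := (Blocks.charDegree_eq χ.2).2
    have hD2 : 2 ≤ D χ := by
      by_contra hlt
      have h1' : (χ : G → ℂ) 1 = 1 := by
        rw [hD, show D χ = 1 by simp only [hDdef] at hlt ⊢; omega, Nat.cast_one]
      have hc' := Chars.card_linear (G := G)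
      rw [SmallOrder.commutator_eq_top hG, Subgroup.index_top, Nat.card_eq_one_iff_unique] at hc'
      have := hc'.1
      exact (Finset.mem_erase.1 hne).1 (congrArg Subtype.val
        (Subsingleton.elim (⟨χ, h1'⟩ : {χ : IrrCharacter G // (χ : G → ℂ) 1 = 1})
          ⟨Blocks.oneChar G, by rw [hD, hD1, Nat.cast_one]⟩))
    have hDle : D χ ≤ 70 := by
      have h' : (D χ : ℤ) ^ 2 ≤ 5040 := hDsq ▸ Finset.single_le_sum (f := fun ψ => (D ψ : ℤ) ^ 2)
        (fun ψ _ => sq_nonneg _) (Finset.mem_univ χ)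
      have h'' : D χ ^ 2 ≤ 5040 := by exact_mod_cast h'
      nlinarith
    obtain ⟨hb1, hb2⟩ := dihedral_bounds hx ht hti χ (u := u χ) (a := a χ)
      (fun i hi => by rw [← hcl χ (hall i hi), hu χ]) (ha χ)
    refine mem_cands hu0 ⟨hu2', hu2⟩ ⟨by exact_mod_cast hD2, by exact_mod_cast hDle⟩
      ((hone χ).resolve_right hu0) ⟨?_, ?_⟩ (hu7 χ) ⟨(k χ : ℤ), by simp [ha']⟩ hb1 hb2
    · simp only [hDdef] at hDle; omega
    · simp only [hDdef] at hDle; omega
  have hc100 : c < 150 := by
    have hb : ∀ χ ∈ T, u χ * (a χ * a χ) * ((720 : ℤ) / (D χ : ℤ)) ≤ 2880 := by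
      intro χ hχ
      have h' := cands_sq_le
      simp only [List.all_eq_true, decide_eq_true_eq] at h'
      exact h' _ (hmem χ hχ)
    have hTc : (T.card : ℤ) ≤ 6 := by
      rw [← hT6, Finset.card_eq_sum_ones, Nat.cast_sum]
      refine Finset.sum_le_sum fun χ hχ => ?_
      have := (Finset.mem_filter.1 hχ).2
      have : 0 < u χ * u χ := mul_self_pos.2 this
      push_cast; linarith
    have hle := Finset.sum_le_card_nsmul T _ _ hb
    rw [nsmul_eq_mul] at hle
    have : (c : ℤ) * c ≤ 18000 := by rw [hTS]; nlinarith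
    nlinarith
  refine no_solution (T.val.map fun χ => (u χ, (D χ : ℤ), a χ)) ?_ c ?_ ?_ ?_ ?_ ?_ hc100
  · intro e he
    obtain ⟨χ, hχ, rfl⟩ := Multiset.mem_map.1 he
    exact hmem χ hχ
  all_goals simp only [Multiset.map_map, Function.comp_def]
  · exact hT6
  · exact hTD
  · exact hTa
  · exact hTS
  · exact hTt

end Cfsg.Agent.SmallOrder.O5040
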