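import Cfsg.Agent.SmallOrder.O5040.Thirtysix
import Cfsg.Agent.SmallOrder.O5040.Chars

/-!
A simple group of order 5040 does not have 120 Sylow 7-subgroups.
-/

set_option autoImplicit false

namespace Cfsg.Agent.SmallOrder.O5040

open Equiv Equiv.Perm

universe u

variable {G : Type u} [Group G] [Finite G]

/-- A subgroup containing `C(x)` for `x` generating a Sylow 7-subgroup: the arithmetic of its order. -/
theorem card_sup_data [Fact (Nat.Prime 7)] (h : Nat.card G = 5040) (P : Sylow 7 G) (hP : Nat.card P = 7)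
    {x : G} (hPx : Subgroup.zpowers x = (P : Subgroup G)) (H : Subgroup G) (hxH : x ∈ H) :
    ∃ n : ℕ, n % 7 = 1 ∧
      Nat.card H = Nat.card (Subgroup.normalizer ((P : Subgroup G) : Set G) ⊓ H : Subgroup G) * n := by
  have hle : (P : Subgroup G) ≤ H := hPx ▸ Subgroup.zpowers_le.2 hxH
  let Q : Sylow 7 H := P.subtype hle
  have hQ : Nat.card Q = 7 := by
    show Nat.card ((P : Subgroup G).subgroupOf H) = 7
    rw [Nat.card_congr (Subgroup.subgroupOfEquivOfLe hle).toEquiv, hP]
  obtain ⟨-, hm⟩ := SmallOrder.card_sylow_dvd_and_mod Q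
  refine ⟨_, hm, ?_⟩
  rw [← SmallOrder.card_normalizer_mul_card_sylow Q]
  congr 1
  have e : Subgroup.normalizer ((Q : Subgroup H) : Set H) =
      (Subgroup.normalizer ((P : Subgroup G) : Set G)).subgroupOf H := by
    show Subgroup.normalizer (((P : Subgroup G).subgroupOf H : Subgroup H) : Set H) = _
    exact (Subgroup.subgroupOf_normalizer_eq hle).symm
  rw [e, ← Subgroup.inf_subgroupOf_right,
    Nat.card_congr (Subgroup.subgroupOfEquivOfLe (inf_le_right)).toEquiv]

/-- Case `n₇ = 120`, `|C(x)| = 14`. -/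
theorem false_of_fourteen [IsSimpleGroup G] [Fact (Nat.Prime 7)] (h : Nat.card G = 5040) (P : Sylow 7 G)
    (hP : Nat.card P = 7) {x : G} (hx : orderOf x = 7) (hPx : Subgroup.zpowers x = (P : Subgroup G))
    (hM : Nat.card (Subgroup.normalizer ((P : Subgroup G) : Set G)) = 42)
    (hC : Nat.card (Subgroup.centralizer ({x} : Set G)) = 14) : False := by
  classical
  haveI : Fact (Nat.Prime 2) := ⟨Nat.prime_two⟩
  have hG : ¬ IsMulCommutative G := SmallOrder.not_comm_of_not_prime (by rw [h]; norm_num)
  set C := Subgroup.centralizer ({x} : Set G) with hCdef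
  set M := Subgroup.normalizer ((P : Subgroup G) : Set G) with hMdef
  obtain ⟨⟨t, htC⟩, ht⟩ := exists_prime_orderOf_dvd_card' (G := C) 2 (by rw [hC]; norm_num)
  rw [← Subgroup.orderOf_coe] at ht
  simp only at ht
  have htx : Commute t x := Subgroup.mem_centralizer_singleton_iff.1 htC
  have htxo : orderOf (t * x) = 14 := by
    rw [htx.orderOf_mul_eq_mul_orderOf_of_coprime (by rw [ht, hx]; norm_num), ht, hx]
  have hxC : x ∈ C := Subgroup.mem_centralizer_singleton_iff.2 rfl
  have hCeq : Subgroup.zpowers (t * x) = C :=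
    Subgroup.eq_of_le_of_card_ge (Subgroup.zpowers_le.2 (mul_mem htC hxC)) (by rw [Nat.card_zpowers, htxo, hC])
  -- `t` is the only involution of `C`
  have huniq : ∀ z ∈ C, orderOf z = 2 → z = t := by
    intro z hz hz2
    rw [← hCeq] at hz
    obtain ⟨i, rfl⟩ := (Submonoid.mem_powers_iff _ _).1 (mem_powers_iff_mem_zpowers.2 hz)
    have h1 : ((t * x) ^ i) ^ 2 = 1 := hz2 ▸ pow_orderOf_eq_one _
    rw [← pow_mul] at h1
    have hd := orderOf_dvd_of_pow_eq_one h1
    rw [htxo] at hd
    obtain ⟨r, rfl⟩ : 7 ∣ i := (Nat.Coprime.dvd_of_dvd_mul_right (by norm_num) ((dvd_mul_left 7 2).trans hd))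
    have e : (t * x) ^ 7 = t := by
      rw [htx.mul_pow, show x ^ 7 = 1 from hx ▸ pow_orderOf_eq_one x, mul_one,
        show (7 : ℕ) = 2 * 3 + 1 from rfl, pow_add, pow_mul, show t ^ 2 = 1 from ht ▸ pow_orderOf_eq_one t,
        one_pow, one_mul, pow_one]
    rw [pow_mul, e]
    rcases Nat.even_or_odd r with ⟨j, rfl⟩ | ⟨j, rfl⟩
    · exfalso
      rw [pow_mul, e, ← two_mul, pow_mul, show t ^ 2 = 1 from ht ▸ pow_orderOf_eq_one t, one_pow, orderOf_one] at hz2
      omega
    · rw [pow_add, pow_mul, show t ^ 2 = 1 from ht ▸ pow_orderOf_eq_one t, one_pow, one_mul, pow_one]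
  set H := Subgroup.centralizer ({t} : Set G) with hH
  have hxH : x ∈ H := Subgroup.mem_centralizer_singleton_iff.2 htx.symm
  have hMH : M ≤ H := by
    intro g hg
    have hgC : g * t * g⁻¹ ∈ C := by
      rw [hCdef, Subgroup.mem_centralizer_singleton_iff]
      have hxs : g⁻¹ * x * g ∈ (P : Subgroup G) := by
        have := (Subgroup.mem_normalizer_iff.1 (M.inv_mem hg) x).1 (hPx ▸ Subgroup.mem_zpowers x)
        rwa [inv_inv] at this
      rw [← hPx] at hxs
      obtain ⟨i, hi⟩ := Subgroup.mem_zpowers_iff.1 hxs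
      have hc : Commute t (x ^ i) := htx.zpow_right i
      rw [hi] at hc
      calc g * t * g⁻¹ * x = g * (t * (g⁻¹ * x * g)) * g⁻¹ := by group
        _ = g * ((g⁻¹ * x * g) * t) * g⁻¹ := by rw [hc.eq]
        _ = _ := by group
    have he := huniq _ hgC (by rw [← MulAut.conj_apply, MulEquiv.orderOf_eq, ht])
    rw [hH, Subgroup.mem_centralizer_singleton_iff]
    calc g * t = (g * t * g⁻¹) * g := by group
      _ = t * g := by rw [he]
  obtain ⟨n, hn7, hn⟩ := card_sup_data h P hP hPx H hxH
  rw [← hMdef, inf_eq_left.2 hMH, hM] at hn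
  have hHd : Nat.card H ∣ 5040 := h ▸ Subgroup.card_subgroup_dvd_card H
  rw [hn] at hHd
  have hn120 : n ∣ 120 := Nat.dvd_of_mul_dvd_mul_left (show 0 < 42 by norm_num) hHd
  have hle : n ≤ 120 := Nat.le_of_dvd (by norm_num) hn120
  have hHtop : H ≠ ⊤ := fun e => by
    have hz : t ∈ Subgroup.center G := Subgroup.mem_center_iff.2 fun g =>
      Subgroup.mem_centralizer_singleton_iff.1 (by rw [← hH, e]; exact Subgroup.mem_top g)
    rcases (inferInstance : (Subgroup.center G).Normal).eq_bot_or_eq_top with hc | hc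
    · rw [hc, Subgroup.mem_bot] at hz
      rw [hz, orderOf_one] at ht
      omega
    · exact hG ⟨⟨fun a b => Subgroup.mem_center_iff.1 (hc ▸ Subgroup.mem_top b) a⟩⟩
  have hidx := H.card_mul_index
  rw [hn, h] at hidx
  interval_cases n <;> first | omega | skip
  · -- `C(t)` has order 42
    obtain ⟨K, hK, htK⟩ := Sylow.exists_subgroup_card_pow_succ (p := 2) (n := 1) (G := G)
      (by rw [h]; norm_num) (H := Subgroup.zpowers t) (by rw [Nat.card_zpowers, ht, pow_one])
    have hKH : K ≤ H := by
      have hc := IsPGroup.commutative_of_card_eq_prime_sq (p := 2) hK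
      intro k hk
      rw [hH, Subgroup.mem_centralizer_singleton_iff]
      exact congrArg Subtype.val (hc ⟨k, hk⟩ ⟨t, htK (Subgroup.mem_zpowers t)⟩)
    have := Subgroup.card_dvd_of_le hKH
    rw [hK, hn] at this
    norm_num at this
  · -- `C(t)` of index 15
    haveI := Fintype.ofFinite (G ⧸ H)
    have hi15 : H.index = 15 := by omega
    set f := MulAction.toPermHom G (G ⧸ H)
    have hf : Function.Injective f := SmallOrder.toPermHom_injective hHtop
    have hfix : ∀ q : G ⧸ H, x • q = q → q = ((1 : G) : G ⧸ H) := by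
      intro q hq
      induction q using QuotientGroup.induction_on with
      | _ g =>
      rw [MulAction.Quotient.smul_coe, smul_eq_mul, QuotientGroup.eq] at hq
      have hg : g⁻¹ * x * g ∈ H := by
        have := H.inv_mem hq
        simpa [mul_assoc] using this
      have hle : (P : Subgroup G) ≤ H := hPx ▸ Subgroup.zpowers_le.2 hxH
      let Q : Sylow 7 H := P.subtype hle
      have ho : orderOf (⟨_, hg⟩ : H) = 7 := by
        rw [← Subgroup.orderOf_coe]
        show orderOf (g⁻¹ * x * g) = 7
        conv_lhs => rw [show g⁻¹ * x * g = MulAut.conj g⁻¹ x by simp]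
        rw [MulEquiv.orderOf_eq, hx]
      have hpg : IsPGroup 7 (Subgroup.zpowers (⟨_, hg⟩ : H)) :=
        IsPGroup.of_card (n := 1) (by rw [Nat.card_zpowers, ho, pow_one])
      obtain ⟨R, hR⟩ := hpg.exists_le_sylow
      obtain ⟨k, hk⟩ := MulAction.exists_smul_eq H R Q
      have hmem : (k : G) * (g⁻¹ * x * g) * (k : G)⁻¹ ∈ (P : Subgroup G) := by
        have h1 : k * (⟨_, hg⟩ : H) * k⁻¹ ∈ (Q : Subgroup H) := by
          rw [← hk]
          exact Subgroup.mem_map_of_mem _ (hR (Subgroup.mem_zpowers _))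
        exact h1
      set c := (k : G) * g⁻¹ with hc
      have hcP : c ∈ M := by
        have hzx : c * x * c⁻¹ ∈ (P : Subgroup G) := by
          rw [hc, show (k : G) * g⁻¹ * x * ((k : G) * g⁻¹)⁻¹ = (k : G) * (g⁻¹ * x * g) * (k : G)⁻¹ by group]
          exact hmem
        rw [hMdef]
        refine Sylow.smul_eq_iff_mem_normalizer.1 (Sylow.ext ?_)
        refine Subgroup.eq_of_le_of_card_ge ?_ (by
          rw [Nat.card_congr (Sylow.equiv (c • P) P).toEquiv])
        rintro _ ⟨z, hz, rfl⟩
        have hz' : z ∈ (P : Subgroup G) := hz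
        rw [← hPx] at hz'
        obtain ⟨i, rfl⟩ := Subgroup.mem_zpowers_iff.1 hz'
        show MulAut.conj c (x ^ i) ∈ (P : Subgroup G)
        rw [map_zpow, MulAut.conj_apply]
        exact zpow_mem hzx i
      have hgH : g ∈ H := by
        have := H.mul_mem (H.inv_mem (hMH hcP)) k.2
        simpa [hc] using this
      rw [QuotientGroup.eq, mul_one]
      exact H.inv_mem hgH
    have hbase : ∀ z ∈ H, z • ((1 : G) : G ⧸ H) = ((1 : G) : G ⧸ H) := by
      intro z hz
      rw [MulAction.Quotient.smul_coe, smul_eq_mul, mul_one, QuotientGroup.eq, mul_one]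
      exact H.inv_mem hz
    have hx2 : (t * x) ^ 2 = x ^ 2 := by
      rw [htx.mul_pow, show t ^ 2 = 1 from ht ▸ pow_orderOf_eq_one t, one_mul]
    have htxH : t * x ∈ H := H.mul_mem (Subgroup.mem_centralizer_singleton_iff.2 rfl) hxH
    have hmove : ∀ q : G ⧸ H, q ≠ ((1 : G) : G ⧸ H) → (x ^ 2) • q ≠ q := by
      intro q hq e
      refine hq (hfix q ?_)
      have h8 : x = (x ^ 2) ^ 4 := by
        rw [← pow_mul, show 2 * 4 = 7 + 1 from rfl, pow_add, show x ^ 7 = 1 from hx ▸ pow_orderOf_eq_one x,
          one_mul, pow_one]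
      rw [h8]
      have hst : x ^ 2 ∈ MulAction.stabilizer G q := MulAction.mem_stabilizer_iff.2 e
      exact MulAction.mem_stabilizer_iff.1 (pow_mem hst 4)
    have hsupp : (f (t * x)).support = Finset.univ.erase ((1 : G) : G ⧸ H) := by
      ext q
      simp only [Perm.mem_support, Finset.mem_erase, Finset.mem_univ, and_true, ne_eq]
      refine ⟨fun hq e => hq (e ▸ hbase _ htxH), fun hq e => hmove q hq ?_⟩
      rw [← hx2, sq, mul_smul]
      have e' : (t * x) • q = q := e
      rw [e', e']
    have hcard : (f (t * x)).support.card = 14 := by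
      rw [hsupp, Finset.card_erase_of_mem (Finset.mem_univ _), Finset.card_univ, ← Nat.card_eq_fintype_card,
        ← Subgroup.index, hi15]
    have hct := cycleType_single (σ := f (t * x)) (p := 7) (q := 2) (by norm_num) Nat.prime_two
      (by rw [orderOf_injective f hf, htxo]) hcard fun q hq e => by
        have hq' : q ≠ ((1 : G) : G ⧸ H) := fun e' => hq (e' ▸ hbase _ htxH)
        refine hmove q hq' ?_
        rw [← hx2]
        rw [← map_pow] at e
        exact e
    have hsign : Perm.sign (f (t * x)) = 1 := SmallOrder.sign_eq_one hG f _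
    rw [Perm.sign_of_cycleType, hct, Multiset.sum_singleton, Multiset.card_singleton] at hsign
    exact absurd hsign (by decide)
  · exact false_of_index_le_eight h (Or.inl rfl) H hHtop (Or.inr ⟨rfl, by omega⟩)
  · exact hHtop (Subgroup.eq_top_of_card_eq H (by rw [hn, h]))

/-- Case `n₇ = 120`, `|C(x)| = 21`. -/
theorem false_of_twentyone [IsSimpleGroup G] [Fact (Nat.Prime 7)] (h : Nat.card G = 5040) (P : Sylow 7 G)
    (hP : Nat.card P = 7) {x : G} (hx : orderOf x = 7) (hPx : Subgroup.zpowers x = (P : Subgroup G))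
    (hM : Nat.card (Subgroup.normalizer ((P : Subgroup G) : Set G)) = 42)
    (hC : Nat.card (Subgroup.centralizer ({x} : Set G)) = 21) : False := by
  classical
  haveI : Fact (Nat.Prime 3) := ⟨Nat.prime_three⟩
  haveI : Fact (Nat.Prime 5) := ⟨by norm_num⟩
  have hG : ¬ IsMulCommutative G := SmallOrder.not_comm_of_not_prime (by rw [h]; norm_num)
  set C := Subgroup.centralizer ({x} : Set G) with hCdef
  obtain ⟨⟨u, huC⟩, hu⟩ := exists_prime_orderOf_dvd_card' (G := C) 3 (by rw [hC]; norm_num)
  rw [← Subgroup.orderOf_coe] at hu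
  simp only at hu
  set H := Subgroup.centralizer ({u} : Set G) with hH
  have hux : Commute u x := Subgroup.mem_centralizer_singleton_iff.1 huC
  have hxH : x ∈ H := Subgroup.mem_centralizer_singleton_iff.2 hux.symm
  -- `C` is cyclic, generated by `u * x`
  have hCeq : Subgroup.zpowers (u * x) = C := by
    refine Subgroup.eq_of_le_of_card_ge (Subgroup.zpowers_le.2
      (mul_mem huC (Subgroup.mem_centralizer_singleton_iff.2 rfl))) ?_
    rw [Nat.card_zpowers, hux.orderOf_mul_eq_mul_orderOf_of_coprime (by rw [hu, hx]; norm_num), hu, hx, hC]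
  have hCH : C ≤ H := by
    rw [← hCeq, Subgroup.zpowers_le]
    exact H.mul_mem (Subgroup.mem_centralizer_singleton_iff.2 rfl) hxH
  have hCM : C ≤ Subgroup.normalizer ((P : Subgroup G) : Set G) := by
    rw [hCdef, ← Subgroup.centralizer_closure, ← Subgroup.zpowers_eq_closure, hPx]
    exact Subgroup.centralizer_le_normalizer _
  obtain ⟨n, hn7, hn⟩ := card_sup_data h P hP hPx H hxH
  set W := Subgroup.normalizer ((P : Subgroup G) : Set G) ⊓ H with hW
  have hW1 : 21 ∣ Nat.card W := hC ▸ Subgroup.card_dvd_of_le (le_inf hCM hCH)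
  have hW2 : Nat.card W ∣ 42 := hM ▸ Subgroup.card_dvd_of_le inf_le_left
  have hHd : Nat.card H ∣ 5040 := h ▸ Subgroup.card_subgroup_dvd_card H
  -- an abelian subgroup of order 9 contains `u`
  obtain ⟨K, hK, huK⟩ := Sylow.exists_subgroup_card_pow_succ (p := 3) (n := 1) (G := G)
    (by rw [h]; norm_num) (H := Subgroup.zpowers u) (by rw [Nat.card_zpowers, hu, pow_one])
  have hKH : K ≤ H := by
    have hc := IsPGroup.commutative_of_card_eq_prime_sq (p := 3) hK
    intro k hk
    rw [hH, Subgroup.mem_centralizer_singleton_iff]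
    exact congrArg Subtype.val (hc ⟨k, hk⟩ ⟨u, huK (Subgroup.mem_zpowers u)⟩)
  have h9 : 9 ∣ Nat.card H := by
    have := Subgroup.card_dvd_of_le hKH
    rwa [hK] at this
  have hHtop : H ≠ ⊤ := fun e => by
    have hz : u ∈ Subgroup.center G := Subgroup.mem_center_iff.2 fun g =>
      Subgroup.mem_centralizer_singleton_iff.1 (by rw [← hH, e]; exact Subgroup.mem_top g)
    rcases (inferInstance : (Subgroup.center G).Normal).eq_bot_or_eq_top with hc | hc
    · rw [hc, Subgroup.mem_bot] at hz
      rw [hz, orderOf_one] at hu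
      omega
    · exact hG ⟨⟨fun a b => Subgroup.mem_center_iff.1 (hc ▸ Subgroup.mem_top b) a⟩⟩
  have hidx := H.card_mul_index
  rw [h] at hidx
  have hbig : ¬ 630 ≤ Nat.card H := by
    intro hb
    have : H.index ≤ 8 := by
      by_contra hlt
      have : 630 * 9 ≤ Nat.card H * H.index := Nat.mul_le_mul hb (by omega)
      omega
    exact false_of_index_le_eight h (Or.inl rfl) H hHtop (Or.inr ⟨rfl, this⟩)
  have h315 : Nat.card W = 21 ∧ n = 15 := by
    rw [hn] at hHd h9 hbig
    rcases (show Nat.card W = 21 ∨ Nat.card W = 42 by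
      obtain ⟨r, hr⟩ := hW1
      rw [hr] at hW2
      have := Nat.le_of_dvd (by norm_num) hW2
      have : r ≠ 0 := fun e => by rw [e, mul_zero] at hr; exact Nat.card_pos.ne' hr
      omega) with e | e <;> rw [e] at hHd h9 hbig ⊢
    · have hle : n < 30 := by omega
      refine ⟨rfl, ?_⟩
      interval_cases n <;> omega
    · exfalso
      have hle : n < 15 := by omega
      interval_cases n <;> omega
  obtain ⟨hW21, rfl⟩ := h315
  have hH315 : Nat.card H = 315 := by rw [hn, hW21]
  -- Burnside's transfer in `H`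
  have hle : (P : Subgroup G) ≤ H := hPx ▸ Subgroup.zpowers_le.2 hxH
  let Q : Sylow 7 H := P.subtype hle
  have hQc : Subgroup.normalizer ((Q : Subgroup H) : Set H) ≤ Subgroup.centralizer ((Q : Subgroup H) : Set H) := by
    intro g hg
    have hgW : (g : G) ∈ W := by
      refine ⟨?_, g.2⟩
      have e : Subgroup.normalizer ((Q : Subgroup H) : Set H) =
          (Subgroup.normalizer ((P : Subgroup G) : Set G)).subgroupOf H := by
        show Subgroup.normalizer (((P : Subgroup G).subgroupOf H : Subgroup H) : Set H) = _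
        exact (Subgroup.subgroupOf_normalizer_eq hle).symm
      rw [e] at hg
      exact hg
    have hWC : W = C :=
      (Subgroup.eq_of_le_of_card_ge (le_inf hCM hCH) (by rw [hC, hW21])).symm
    rw [hWC] at hgW
    intro q hq
    refine Subtype.ext ?_
    have hqP : (q : G) ∈ Subgroup.zpowers x := by rw [hPx]; exact hq
    obtain ⟨i, hi⟩ := Subgroup.mem_zpowers_iff.1 hqP
    show (q : G) * g = g * q
    rw [← hi]
    exact (Commute.zpow_left (Subgroup.mem_centralizer_singleton_iff.1 hgW).symm i)
  have hcomp := MonoidHom.ker_transferSylow_isComplement' Q hQc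
  set N := (MonoidHom.transferSylow Q hQc).ker with hN
  have hNc : Nat.card N = 45 := by
    have := hcomp.card_mul
    have hQ : Nat.card (Q : Subgroup H) = 7 := by
      show Nat.card ((P : Subgroup G).subgroupOf H) = 7
      rw [Nat.card_congr (Subgroup.subgroupOfEquivOfLe hle).toEquiv, hP]
    rw [hQ, hH315] at this
    omega
  obtain ⟨R⟩ := (inferInstance : Nonempty (Sylow 5 N))
  obtain ⟨hR, -, hRd, hRm⟩ := SmallOrder.sylow_arith R (a := 1) (m := 9) (by rw [hNc]; norm_num) (by norm_num)
  have hR1 : Nat.card (Sylow 5 N) = 1 := by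
    have hb : Nat.card (Sylow 5 N) ≤ 9 := Nat.le_of_dvd (by norm_num) hRd
    interval_cases hc : Nat.card (Sylow 5 N) <;> omega
  haveI : Subsingleton (Sylow 5 N) := (Nat.card_eq_one_iff_unique.1 hR1).1
  haveI : (R : Subgroup N).Normal := R.normal_of_subsingleton
  haveI : N.Normal := MonoidHom.normal_ker _
  haveI hchar : (R : Subgroup N).Characteristic := R.characteristic_of_normal inferInstance
  haveI hRn : ((R : Subgroup N).map N.subtype).Normal := ConjAct.normal_of_characteristic_of_normal
  set S := (R : Subgroup N).map N.subtype with hS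
  have hScard : Nat.card S = 5 := by
    rw [hS, Subgroup.card_map_of_injective N.subtype_injective, hR, pow_one]
  -- `x` centralises `S`
  have hrel := SmallOrder.relIndex_centralizer_dvd_sub_one (p := 5) S hScard
  obtain ⟨⟨z, hzS⟩, hz⟩ := exists_prime_orderOf_dvd_card' (G := S) 5 (dvd_of_eq hScard.symm)
  rw [← Subgroup.orderOf_coe] at hz
  simp only at hz
  have hxS : (⟨x, hxH⟩ : H) ∈ Subgroup.centralizer (S : Set H) := by
    set Y := Subgroup.centralizer (S : Set H)
    have hnorm : Subgroup.normalizer (S : Set H) = ⊤ := Subgroup.normalizer_eq_top_iff.2 hRn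
    rw [hnorm, Subgroup.relIndex_top_right] at hrel
    haveI : Y.Normal := by
      have : (Subgroup.centralizer (S : Set H)).Normal := inferInstance
      exact this
    have h7 : orderOf (QuotientGroup.mk' Y (⟨x, hxH⟩ : H)) ∣ Nat.gcd 7 Y.index := by
      refine Nat.dvd_gcd ?_ ?_
      · refine (orderOf_map_dvd _ _).trans ?_
        rw [← Subgroup.orderOf_coe, hx]
      · exact orderOf_dvd_natCard _
    have hgcd : Nat.gcd 7 Y.index = 1 := by
      have : Y.index ∣ 4 := hrel
      exact Nat.Coprime.coprime_dvd_right this (by norm_num)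
    rw [hgcd, Nat.dvd_one, orderOf_eq_one_iff] at h7
    exact (QuotientGroup.eq_one_iff _).1 h7
  have hzC : (z : G) ∈ C := by
    rw [hCdef, Subgroup.mem_centralizer_singleton_iff]
    exact congrArg Subtype.val (hxS z hzS)
  have hd := Subgroup.orderOf_dvd_natCard _ hzC
  rw [Subgroup.orderOf_coe, hz, hC] at hd
  norm_num at hd

/-- Case `n₇ = 120`. -/
theorem false_of_hundredtwenty [IsSimpleGroup G] [Fact (Nat.Prime 7)] (h : Nat.card G = 5040)
    (hn : Nat.card (Sylow 7 G) = 120) : False := by
  classical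
  obtain ⟨P⟩ := (inferInstance : Nonempty (Sylow 7 G))
  obtain ⟨x, hx, hPx, hP, k, hk6, hk1, hCk, h7⟩ := sylow_seven_data h P
  have hN := SmallOrder.card_normalizer_mul_card_sylow P
  rw [hn, h] at hN
  have hM : Nat.card (Subgroup.normalizer ((P : Subgroup G) : Set G)) = 42 := by omega
  rw [hM] at hCk
  have hk : k ≤ 6 := Nat.le_of_dvd (by norm_num) hk6
  interval_cases k <;> try omega
  · exact false_of_twentyone h P hP hx hPx hM (by omega)
  · exact false_of_fourteen h P hP hx hPx hM (by omega)
  haveI := Fintype.ofFinite G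
  have hCP : Subgroup.centralizer ({x} : Set G) = Subgroup.zpowers x :=
    (Subgroup.eq_of_le_of_card_ge (Subgroup.zpowers_le.2 (Subgroup.mem_centralizer_singleton_iff.2 rfl))
      (by rw [Nat.card_zpowers, hx]; omega)).symm
  have he := SmallOrder.SelfCentDeg.card_normalizer (p := 7) hx hCP
  rw [hPx, hM] at he
  have hall : SmallOrder.SelfCentDeg.expSet 7 x = Finset.univ.erase 0 :=
    Finset.eq_of_subset_of_card_le
      (fun r hr => Finset.mem_erase.2 ⟨SmallOrder.SelfCentDeg.ne_zero_of_mem hx hr, Finset.mem_univ _⟩)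
      (by rw [Finset.card_erase_of_mem (Finset.mem_univ _), Finset.card_univ, ZMod.card]; omega)
  refine false_of_selfcent h hx hCP fun i hi => ?_
  have hmem : (i : ZMod 7) ∈ SmallOrder.SelfCentDeg.expSet 7 x := by
    rw [hall]
    exact Finset.mem_erase.2 ⟨fun e => hi ((ZMod.natCast_eq_zero_iff i 7).1 e), Finset.mem_univ _⟩
  have := SmallOrder.SelfCentDeg.mem_expSet.1 hmem
  rwa [ZMod.val_natCast, show x ^ (i % 7) = x ^ i by conv_rhs => rw [← pow_mod_orderOf, hx]] at this

end Cfsg.Agent.SmallOrder.O5040
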