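import Cfsg.Agent.SmallOrder.Exclude
import Mathlib.GroupTheory.Perm.Centralizer
import Mathlib.GroupTheory.SpecificGroups.Alternating.Simple

/-!
Permutation and Sylow facts used for the groups of order 5040 and 2520.
-/

set_option autoImplicit false

namespace Cfsg.Agent.SmallOrder.O5040

open Equiv Equiv.Perm

universe u v

section Perm

variable {α : Type v} [Fintype α] [DecidableEq α]

/-- A cycle length `n` gives a moved point fixed by the `n`-th power. -/
theorem exists_fixed_pow {σ : Perm α} {n : ℕ} (h : n ∈ σ.cycleType) :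
    ∃ a, σ a ≠ a ∧ (σ ^ n) a = a := by
  obtain ⟨c, τ, rfl, hd, hc, hn⟩ := mem_cycleType_iff.1 h
  obtain ⟨a, ha, -⟩ := id hc
  have hτ : τ a = a := (hd a).resolve_left ha
  refine ⟨a, ?_, ?_⟩
  · rw [Perm.mul_apply, hτ]; exact ha
  · rw [hd.commute.mul_pow, Perm.mul_apply, ← hn, ← hc.orderOf, pow_orderOf_eq_one, Perm.one_apply]
    exact pow_apply_eq_self_of_apply_eq_self hτ _

/-- A permutation of order `p * q` on `p * q` points whose `q`-th power moves all of them is a cycle. -/
theorem cycleType_single {σ : Perm α} {p q : ℕ} (hp : p.Prime) (hq : q.Prime)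
    (hord : orderOf σ = p * q) (hs : σ.support.card = p * q) (hfix : ∀ a, σ a ≠ a → (σ ^ q) a ≠ a) :
    σ.cycleType = {p * q} := by
  have hlen : ∀ n ∈ σ.cycleType, n = p ∨ n = p * q := by
    intro n hn
    have hd := dvd_of_mem_cycleType hn
    rw [hord] at hd
    obtain ⟨a, b, ha, hb, rfl⟩ := exists_dvd_and_dvd_of_dvd_mul hd
    have h2 := two_le_of_mem_cycleType hn
    rcases (Nat.dvd_prime hp).1 ha with rfl | rfl <;> rcases (Nat.dvd_prime hq).1 hb with rfl | rfl
    · omega
    · obtain ⟨a, ha1, ha2⟩ := exists_fixed_pow hn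
      rw [one_mul] at ha2
      exact absurd ha2 (hfix a ha1)
    · exact Or.inl (mul_one _)
    · exact Or.inr rfl
  have hmem : p * q ∈ σ.cycleType := by
    by_contra hne
    have hl : σ.cycleType.lcm ∣ p := Multiset.lcm_dvd.2 fun n hn => by
      rcases hlen n hn with rfl | rfl
      exacts [dvd_rfl, absurd hn hne]
    rw [lcm_cycleType, hord] at hl
    have := Nat.le_of_dvd hp.pos hl
    have := Nat.mul_le_mul_left p hq.two_le
    have := hp.pos
    omega
  obtain ⟨t, ht⟩ := Multiset.exists_cons_of_mem hmem
  have hsum : p * q + t.sum = p * q := by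
    rw [← Multiset.sum_cons, ← ht, sum_cycleType, hs]
  have ht0 : t = 0 := Multiset.eq_zero_of_forall_notMem fun n hn => by
    have h1 := Multiset.le_sum_of_mem hn
    have h2 := two_le_of_mem_cycleType (σ := σ) (n := n) (by rw [ht]; exact Multiset.mem_cons_of_mem hn)
    omega
  rw [ht, ht0]; rfl

/-- The centralizer in `Perm α` of a permutation that fixes one point and is a cycle on the rest. -/
theorem card_centralizer_single {σ : Perm α} {n : ℕ} (h : σ.cycleType = {n}) (hn : Fintype.card α = n + 1) :
    Nat.card (Subgroup.centralizer ({σ} : Set (Perm α))) = n := by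
  rw [Equiv.Perm.nat_card_centralizer, h, hn]
  simp

/-- The centralizer in `Perm α` of two 7-cycles with one fixed point. -/
theorem card_centralizer_seven {σ : Perm α} (hord : orderOf σ = 7) (hn : Fintype.card α = 15)
    (hs : σ.support.card = 14) : Nat.card (Subgroup.centralizer ({σ} : Set (Perm α))) = 98 := by
  obtain ⟨k, hk⟩ := cycleType_prime_order (σ := σ) (by rw [hord]; norm_num)
  rw [hord] at hk
  have hk1 : k = 1 := by
    have := sum_cycleType σ
    rw [hk, Multiset.sum_replicate, smul_eq_mul, hs] at this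
    omega
  rw [hk1] at hk
  rw [Equiv.Perm.nat_card_centralizer, hk, hn]
  decide

end Perm

variable {G : Type u} [Group G] [Finite G]

/-- A nontrivial element of a Sylow subgroup of prime order lies in one Sylow normalizer only. -/
theorem sylow_eq_of_fix {p : ℕ} [hp : Fact p.Prime] {P : Sylow p G} (hP : Nat.card P = p) {g : G}
    (hg : g ∈ (P : Subgroup G)) (hg1 : g ≠ 1) {Q : Sylow p G} (h : g • Q = Q) : Q = P := by
  have hgN : g ∈ Subgroup.normalizer ((Q : Subgroup G) : Set G) := Sylow.smul_eq_iff_mem_normalizer.1 h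
  have hgQ : g ∈ (Q : Subgroup G) := by
    have hpg : IsPGroup p (Subgroup.zpowers g) :=
      P.isPGroup'.to_le (Subgroup.zpowers_le.2 hg)
    have hsup := hpg.to_sup_of_normal_right' Q.isPGroup' (Subgroup.zpowers_le.2 hgN)
    rw [← Q.is_maximal' hsup le_sup_right]
    exact Subgroup.mem_sup_left (Subgroup.mem_zpowers g)
  have hQ : Nat.card Q = p := by rw [← Nat.card_congr (P.equiv Q).toEquiv, hP]
  have hone : Nat.card (Subgroup.zpowers g) = p := by
    rcases hp.out.eq_one_or_self_of_dvd _ (hP ▸ Subgroup.card_dvd_of_le (Subgroup.zpowers_le.2 hg)) with e | e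
    · rw [Nat.card_zpowers, orderOf_eq_one_iff] at e
      exact absurd e hg1
    · exact e
  refine Sylow.ext ?_
  rw [← Subgroup.eq_of_le_of_card_ge (Subgroup.zpowers_le.2 hgQ) (by rw [hone, hQ]),
    Subgroup.eq_of_le_of_card_ge (Subgroup.zpowers_le.2 hg) (by rw [hone, hP])]

/-- The permutation on the Sylow subgroups of a nontrivial element of `P` moves every other one. -/
theorem sylow_support {p : ℕ} [hp : Fact p.Prime] [Fintype (Sylow p G)] [DecidableEq (Sylow p G)]
    {P : Sylow p G} (hP : Nat.card P = p) {g : G} (hg : g ∈ (P : Subgroup G)) (hg1 : g ≠ 1) :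
    (MulAction.toPermHom G (Sylow p G) g).support = Finset.univ.erase P := by
  ext Q
  simp only [Perm.mem_support, MulAction.toPermHom_apply, MulAction.toPerm_apply, Finset.mem_erase,
    Finset.mem_univ, and_true, ne_eq]
  refine ⟨fun h e => h ?_, fun h e => h (sylow_eq_of_fix hP hg hg1 e)⟩
  subst e
  exact Sylow.smul_eq_iff_mem_normalizer.2 (Subgroup.le_normalizer hg)

/-- An injective homomorphism maps a centralizer into a centralizer. -/
theorem card_centralizer_dvd {G' : Type v} [Group G'] (f : G →* G') (hf : Function.Injective f) (g : G) :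
    Nat.card (Subgroup.centralizer ({g} : Set G)) ∣ Nat.card (Subgroup.centralizer ({f g} : Set G')) := by
  have hle : (Subgroup.centralizer ({g} : Set G)).map f ≤ Subgroup.centralizer ({f g} : Set G') := by
    rintro _ ⟨a, ha, rfl⟩
    rw [SetLike.mem_coe, Subgroup.mem_centralizer_singleton_iff] at *
    rw [← map_mul, ← map_mul, ha]
  rw [Nat.card_congr ((Subgroup.centralizer ({g} : Set G)).equivMapOfInjective f hf).toEquiv]
  exact Subgroup.card_dvd_of_le hle

/-- A group of order 5040 or 2520 that is simple has no proper subgroup of index at most 8,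
apart from index 8 for order 20160. -/
theorem false_of_index_le_eight [IsSimpleGroup G] {N : ℕ} (hN : Nat.card G = N) (hN' : N = 5040 ∨ N = 2520)
    (H : Subgroup G) (hH : H ≠ ⊤) (h8 : H.index ≤ 6 ∨ (N = 5040 ∧ H.index ≤ 8)) : False := by
  have hG : ¬ IsMulCommutative G := SmallOrder.not_comm_of_not_prime (by
    rw [hN]; rcases hN' with rfl | rfl <;> norm_num)
  have h2 := SmallOrder.two_mul_card_dvd_factorial hG H hH
  rw [hN] at h2
  have h1 : 1 ≤ H.index := Nat.one_le_iff_ne_zero.2 Subgroup.index_ne_zero_of_finite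
  by_cases h6 : H.index ≤ 7 ∧ (N = 5040 ∨ H.index ≤ 6)
  · obtain ⟨h7, h56⟩ := h6
    rcases hN' with rfl | rfl <;> interval_cases hi : H.index <;>
      simp_all [Nat.factorial] <;> omega
  obtain ⟨rfl, hle⟩ : N = 5040 ∧ H.index ≤ 8 := by
    rcases h8 with h8 | h8
    · exact absurd ⟨by omega, Or.inr h8⟩ h6
    · exact h8
  have hidx : H.index = 8 := by
    by_contra hne
    exact h6 ⟨by omega, Or.inl rfl⟩
  obtain ⟨f, hf⟩ := SmallOrder.embeds_alternating hG H hH
  revert f
  rw [hidx]
  intro f hf
  have hK : Nat.card f.range = 5040 := by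
    rw [← Nat.card_congr (MonoidHom.ofInjective hf).toEquiv, hN]
  haveI : IsSimpleGroup (alternatingGroup (Fin 8)) := alternatingGroup.isSimpleGroup (by simp)
  have hA : Nat.card (alternatingGroup (Fin 8)) = 20160 := by
    rw [nat_card_alternatingGroup, Nat.card_fin]; norm_num [Nat.factorial]
  have hAc : ¬ IsMulCommutative (alternatingGroup (Fin 8)) :=
    SmallOrder.not_comm_of_not_prime (by rw [hA]; norm_num)
  have h4 : f.range.index = 4 := by
    have := f.range.card_mul_index
    rw [hK, hA] at this
    omega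
  have := SmallOrder.two_mul_card_dvd_factorial' hAc f.range h4 (by norm_num)
  rw [hA] at this
  norm_num at this

end Cfsg.Agent.SmallOrder.O5040
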