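import Mathlib

/-!
The finite search behind the degree equations for a group of order 5040 with a self-centralising
element of order 7: no multiset of candidates `(u, D, a)` satisfies them all.
-/

set_option autoImplicit false

namespace Cfsg.Agent.SmallOrder.O5040

/-- A candidate: the value `u` at the element of order 7, the degree `D`, the value `a` at the involution. -/
abbrev Cand : Type := ℤ × ℤ × ℤ

/-- The list of candidates. -/
def cands : List Cand :=
  [(1, 8, 0), (1, 15, -1), (1, 15, 3), (1, 36, -4), (1, 36, 0), (1, 36, 4), (-1, 20, 0), (-1, 48, -4),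
    (-1, 48, 0), (-1, 48, 4), (2, 2, -2), (2, 2, 2), (2, 9, -3), (2, 9, 1), (2, 16, -4), (2, 16, 0), (2, 16, 4),
    (2, 30, -6), (2, 30, -2), (2, 30, 2), (2, 30, 6), (-2, 12, 0), (-2, 40, -4), (-2, 40, 0), (-2, 40, 4)]

/-- The accumulated data of a collection of candidates. -/
structure St where
  w : ℤ
  sd : ℤ
  sa : ℤ
  sq : ℤ
  s2 : ℤ

/-- Adding a candidate. -/
def St.add (s : St) (c : Cand) : St :=
  ⟨s.w + c.1 * c.1, s.sd + c.1 * c.2.1, s.sa + c.1 * c.2.2, s.sq + c.1 * (c.2.2 * c.2.2) * (720 / c.2.1),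
    s.s2 + c.2.2 * c.2.2⟩

/-- The equations. -/
def bad (s : St) : Bool :=
  decide (s.w = 6) && decide (s.sd = -1) && decide (s.sa = -1) &&
    (List.range 150).any fun c => decide (((c * c : ℕ) : ℤ) = 720 + s.sq) && decide (1 + s.s2 ≤ (c : ℤ))

/-- Search. -/
def ok : ℕ → List Cand → St → Bool
  | 0, _, _ => false
  | _ + 1, [], s => !bad s
  | n + 1, c :: l, s => ok n l s && (decide (6 < s.w + c.1 * c.1) || ok n (c :: l) (s.add c))

theorem ok_all : ok 33 cands ⟨0, 0, 0, 0, 0⟩ = true := by decide +kernel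

/-- The check that `cands` contains every admissible candidate. -/
def candsB : Bool :=
  (List.range 5).all fun u => (List.range 71).all fun D => (List.range 25).all fun a =>
    decide (u = 2) || decide (D < 2) || decide (720 % D ≠ 0) ||
      decide (((D : ℤ) - ((u : ℤ) - 2)) % 7 ≠ 0) || decide (((D : ℤ) - ((a : ℤ) - 12)) % 4 ≠ 0) ||
      decide ((D : ℤ) + 6 * ((u : ℤ) - 2) < 7 * ((a : ℤ) - 12)) ||
      decide ((D : ℤ) + 6 * ((u : ℤ) - 2) < -(7 * ((a : ℤ) - 12))) ||
      cands.contains ((u : ℤ) - 2, (D : ℤ), (a : ℤ) - 12)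

theorem candsB_true : candsB = true := by decide +kernel

theorem mem_cands {u D a : ℤ} (hu0 : u ≠ 0) (hu : -2 ≤ u ∧ u ≤ 2) (hD : 2 ≤ D ∧ D ≤ 70)
    (hd : (D : ℤ) ∣ 720) (ha : -12 ≤ a ∧ a ≤ 12) (h7 : (7 : ℤ) ∣ D - u) (h4 : (4 : ℤ) ∣ D - a)
    (hup : 7 * a ≤ D + 6 * u) (hlow : -(7 * a) ≤ D + 6 * u) : (u, D, a) ∈ cands := by
  obtain ⟨u', rfl⟩ : ∃ u' : ℕ, u = (u' : ℤ) - 2 := ⟨(u + 2).toNat, by omega⟩
  obtain ⟨D', rfl⟩ : ∃ D' : ℕ, D = (D' : ℤ) := ⟨D.toNat, by omega⟩
  obtain ⟨a', rfl⟩ : ∃ a' : ℕ, a = (a' : ℤ) - 12 := ⟨(a + 12).toNat, by omega⟩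
  have h := candsB_true
  simp only [candsB, List.all_eq_true, List.mem_range, Bool.or_eq_true, decide_eq_true_eq] at h
  have hd' : 720 % D' = 0 := Nat.mod_eq_zero_of_dvd (Int.natCast_dvd_natCast.1 hd)
  have h7' := Int.emod_eq_zero_of_dvd h7
  have h4' := Int.emod_eq_zero_of_dvd h4
  rcases h u' (by omega) D' (by omega) a' (by omega) with ((((((h | h) | h) | h) | h) | h) | h) | h
  all_goals first
    | omega
    | exact List.contains_iff_mem.1 h

theorem cands_sq_le : (cands.all fun e => decide (e.1 * (e.2.2 * e.2.2) * (720 / e.2.1) ≤ 2880)) = true := by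
  decide +kernel

/-- Total of a multiset of candidates. -/
def total (s : St) (m : Multiset Cand) : St :=
  ⟨s.w + (m.map fun c => c.1 * c.1).sum, s.sd + (m.map fun c => c.1 * c.2.1).sum,
    s.sa + (m.map fun c => c.1 * c.2.2).sum,
    s.sq + (m.map fun c => c.1 * (c.2.2 * c.2.2) * (720 / c.2.1)).sum,
    s.s2 + (m.map fun c => c.2.2 * c.2.2).sum⟩

theorem total_cons (s : St) (c : Cand) (m : Multiset Cand) : total s (c ::ₘ m) = total (s.add c) m := by
  simp [total, St.add, add_assoc]

theorem sound : ∀ (n : ℕ) (l : List Cand) (s : St), ok n l s = true → ∀ m : Multiset Cand, (∀ c ∈ m, c ∈ l) →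
    bad (total s m) = false := by
  intro n
  induction n with
  | zero => intro l s h; simp [ok] at h
  | succ n ih =>
    intro l s h m hm
    cases l with
    | nil =>
      obtain rfl : m = 0 := Multiset.eq_zero_of_forall_notMem fun c hc => by simpa using hm c hc
      simpa [ok, total] using h
    | cons c l =>
      simp only [ok, Bool.and_eq_true, Bool.or_eq_true, decide_eq_true_eq] at h
      by_cases hc : c ∈ m
      · obtain ⟨m', rfl⟩ := Multiset.exists_cons_of_mem hc
        rw [total_cons]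
        rcases h.2 with h6 | h6
        · have h0 : 0 ≤ (m'.map fun e : Cand => e.1 * e.1).sum :=
            Multiset.sum_nonneg fun a ha => by
              obtain ⟨e, -, rfl⟩ := Multiset.mem_map.1 ha
              exact mul_self_nonneg _
          have hne : (total (s.add c) m').w ≠ 6 := by
            simp only [total, St.add]
            omega
          simp [bad, hne]
        · exact ih _ _ h6 m' fun e he => hm e (Multiset.mem_cons_of_mem he)
      · exact ih _ _ h.1 m fun e he => by
          rcases List.mem_cons.1 (hm e he) with rfl | h'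
          exacts [absurd he hc, h']

/-- No multiset of candidates satisfies the equations. -/
theorem no_solution (m : Multiset Cand) (hm : ∀ c ∈ m, c ∈ cands) (c : ℕ) (hw : (m.map fun e => e.1 * e.1).sum = 6)
    (hsd : (m.map fun e => e.1 * e.2.1).sum = -1) (hsa : (m.map fun e => e.1 * e.2.2).sum = -1)
    (hsq : (c : ℤ) * c = 720 + (m.map fun e => e.1 * (e.2.2 * e.2.2) * (720 / e.2.1)).sum)
    (hs2 : 1 + (m.map fun e => e.2.2 * e.2.2).sum ≤ (c : ℤ)) (hc : c < 150) : False := by
  have h := sound _ _ _ ok_all m hm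
  simp only [bad, total, zero_add, hw, hsd, hsa, decide_true, Bool.true_and,
    List.any_eq_false, List.mem_range, Bool.and_eq_true, decide_eq_true_eq, not_and] at h
  exact h c hc (by push_cast; linarith) hs2

end Cfsg.Agent.SmallOrder.O5040
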