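import Cfsg.Agent.SmallOrder.O5040.Basic

/-!
A simple group of order 5040 does not have 15 or 36 Sylow 7-subgroups.
-/

set_option autoImplicit false

namespace Cfsg.Agent.SmallOrder.O5040

open Equiv Equiv.Perm

universe u

variable {G : Type u} [Group G] [Finite G]

/-- The data common to all cases: an element generating the Sylow subgroup, and its centralizer. -/
theorem sylow_seven_data [IsSimpleGroup G] [Fact (Nat.Prime 7)] (h : Nat.card G = 5040) (P : Sylow 7 G) :
    ∃ x : G, orderOf x = 7 ∧ Subgroup.zpowers x = (P : Subgroup G) ∧ Nat.card P = 7 ∧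
      ∃ k : ℕ, k ∣ 6 ∧ k ≠ 1 ∧
        Nat.card (Subgroup.centralizer ({x} : Set G)) * k =
          Nat.card (Subgroup.normalizer ((P : Subgroup G) : Set G)) ∧
        7 ∣ Nat.card (Subgroup.centralizer ({x} : Set G)) := by
  have hG : ¬ IsMulCommutative G := SmallOrder.not_comm_of_not_prime (by rw [h]; norm_num)
  obtain ⟨hP, -, -, -⟩ := SmallOrder.sylow_arith P (a := 1) (m := 720) (by rw [h]; norm_num) (by norm_num)
  rw [pow_one] at hP
  obtain ⟨⟨x, hxP⟩, hx⟩ := exists_prime_orderOf_dvd_card' (G := (P : Subgroup G)) 7 (dvd_of_eq hP.symm)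
  rw [← Subgroup.orderOf_coe] at hx
  simp only at hx
  have hPx : Subgroup.zpowers x = (P : Subgroup G) :=
    Subgroup.eq_of_le_of_card_ge (Subgroup.zpowers_le.2 hxP) (by rw [Nat.card_zpowers, hx, hP])
  have hCx : Subgroup.centralizer ((P : Subgroup G) : Set G) = Subgroup.centralizer ({x} : Set G) := by
    rw [← hPx, Subgroup.zpowers_eq_closure, Subgroup.centralizer_closure]
  obtain ⟨h1, h2⟩ := SmallOrder.relIndex_prime_sylow hG P hP
  rw [hCx] at h1 h2
  have hle : Subgroup.centralizer ({x} : Set G) ≤ Subgroup.normalizer ((P : Subgroup G) : Set G) :=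
    hCx ▸ Subgroup.centralizer_le_normalizer _
  refine ⟨x, hx, hPx, hP, _, h1, h2, ?_, ?_⟩
  · rw [← Subgroup.relIndex_bot_left, ← Subgroup.relIndex_bot_left]
    exact Subgroup.relIndex_mul_relIndex _ _ _ bot_le hle
  · clear hxP
    have : (P : Subgroup G) ≤ Subgroup.centralizer ({x} : Set G) := by
      rw [← hPx, Subgroup.zpowers_le, Subgroup.mem_centralizer_singleton_iff]
    exact hP ▸ Subgroup.card_dvd_of_le this

/-- The Sylow action of a simple group of order 5040 is faithful. -/
theorem sylow_action_injective [IsSimpleGroup G] [Fact (Nat.Prime 7)] (h : Nat.card G = 5040) (P : Sylow 7 G) :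
    Function.Injective (MulAction.toPermHom G (Sylow 7 G)) := by
  have hG : ¬ IsMulCommutative G := SmallOrder.not_comm_of_not_prime (by rw [h]; norm_num)
  have hne := SmallOrder.card_sylow_ne_one hG (p := 7) (by rw [h]; norm_num)
  haveI : Nontrivial (Sylow 7 G) := by
    rw [← Finite.one_lt_card_iff_nontrivial]
    have : Nat.card (Sylow 7 G) ≠ 0 := Nat.card_ne_zero.2 ⟨⟨P⟩, inferInstance⟩
    omega
  obtain ⟨Q, hQ⟩ := exists_ne P
  obtain ⟨g, hg⟩ := MulAction.exists_smul_eq G P Q
  exact SmallOrder.toPermHom_injective_of_moved (g := g) (a := P) (by rw [hg]; exact hQ)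

/-- Case `n₇ = 15`. -/
theorem false_of_fifteen [IsSimpleGroup G] [Fact (Nat.Prime 7)] (h : Nat.card G = 5040)
    (hn : Nat.card (Sylow 7 G) = 15) : False := by
  classical
  obtain ⟨P⟩ := (inferInstance : Nonempty (Sylow 7 G))
  haveI := Fintype.ofFinite (Sylow 7 G)
  obtain ⟨x, hx, hPx, hP, k, hk6, hk1, hCk, h7⟩ := sylow_seven_data h P
  have hN := SmallOrder.card_normalizer_mul_card_sylow P
  rw [hn, h] at hN
  set C := Nat.card (Subgroup.centralizer ({x} : Set G))
  have hxP : x ∈ (P : Subgroup G) := hPx ▸ Subgroup.mem_zpowers x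
  have hx1 : x ≠ 1 := fun e => by rw [e, orderOf_one] at hx; omega
  set f := MulAction.toPermHom G (Sylow 7 G)
  have hf := sylow_action_injective h P
  have hs : (f x).support.card = 14 := by
    rw [sylow_support hP hxP hx1, Finset.card_erase_of_mem (Finset.mem_univ _), Finset.card_univ,
      ← Nat.card_eq_fintype_card, hn]
  have hd := card_centralizer_dvd f hf x
  rw [card_centralizer_seven (by rw [orderOf_injective f hf, hx]) (by rw [← Nat.card_eq_fintype_card, hn]) hs] at hd
  have hk : k ≤ 6 := Nat.le_of_dvd (by norm_num) hk6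
  have hC : C ∣ 98 := hd
  have hC98 : C ≤ 98 := Nat.le_of_dvd (by norm_num) hC
  interval_cases k <;> interval_cases C <;> omega

/-- Case `n₇ = 36`. -/
theorem false_of_thirtysix [IsSimpleGroup G] [Fact (Nat.Prime 7)] (h : Nat.card G = 5040)
    (hn : Nat.card (Sylow 7 G) = 36) : False := by
  classical
  haveI : Fact (Nat.Prime 5) := ⟨by norm_num⟩
  haveI : Fact (Nat.Prime 2) := ⟨Nat.prime_two⟩
  have hG : ¬ IsMulCommutative G := SmallOrder.not_comm_of_not_prime (by rw [h]; norm_num)
  obtain ⟨P⟩ := (inferInstance : Nonempty (Sylow 7 G))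
  haveI := Fintype.ofFinite (Sylow 7 G)
  haveI := Fintype.ofFinite G
  obtain ⟨x, hx, hPx, hP, k, hk6, hk1, hCk, h7⟩ := sylow_seven_data h P
  have hN := SmallOrder.card_normalizer_mul_card_sylow P
  rw [hn, h] at hN
  set M := Subgroup.normalizer ((P : Subgroup G) : Set G) with hMdef
  have hM : Nat.card M = 140 := by omega
  set C := Subgroup.centralizer ({x} : Set G) with hCdef
  have hC : Nat.card C = 70 := by
    rw [hM] at hCk
    have hk : k ≤ 6 := Nat.le_of_dvd (by norm_num) hk6
    obtain ⟨c, hc⟩ := h7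
    interval_cases k <;> omega
  have hCM : C ≤ M := by
    intro g hg
    rw [hMdef, Subgroup.mem_normalizer_iff]
    intro y
    rw [← hPx]
    have hcomm : ∀ z ∈ Subgroup.zpowers x, g * z * g⁻¹ = z := by
      intro z hz
      obtain ⟨i, rfl⟩ := Subgroup.mem_zpowers_iff.1 hz
      have : Commute g (x ^ i) := Commute.zpow_right (Subgroup.mem_centralizer_singleton_iff.1 hg) i
      rw [this.eq, mul_inv_cancel_right]
    constructor
    · intro hy; rw [hcomm y hy]; exact hy
    · intro hy
      have := hcomm _ hy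
      have e : g * y * g⁻¹ = y := mul_left_cancel (mul_right_cancel this)
      rwa [e] at hy
  obtain ⟨y', hy'⟩ := exists_prime_orderOf_dvd_card' (G := C) 5 (by rw [hC]; norm_num)
  obtain ⟨t', ht'⟩ := exists_prime_orderOf_dvd_card' (G := C) 2 (by rw [hC]; norm_num)
  set y : G := (y' : G) with hy0
  set t : G := (t' : G) with ht0
  have hy : orderOf y = 5 := by rw [hy0, Subgroup.orderOf_coe, hy']
  have ht : orderOf t = 2 := by rw [ht0, Subgroup.orderOf_coe, ht']
  have hxy : Commute y x := Subgroup.mem_centralizer_singleton_iff.1 y'.2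
  have htx : Commute t x := Subgroup.mem_centralizer_singleton_iff.1 t'.2
  set σ := x * y with hσdef
  have hσ : orderOf σ = 35 := by
    rw [hσdef, hxy.symm.orderOf_mul_eq_mul_orderOf_of_coprime (by rw [hx, hy]; norm_num), hx, hy]
  set f := MulAction.toPermHom G (Sylow 7 G) with hfdef
  have hf := sylow_action_injective h P
  have hxP : x ∈ (P : Subgroup G) := hPx ▸ Subgroup.mem_zpowers x
  have hσ5 : σ ^ 5 = x ^ 5 := by
    rw [hσdef, hxy.symm.mul_pow, show y ^ 5 = 1 from hy ▸ pow_orderOf_eq_one y, mul_one]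
  have hx5 : x ^ 5 ≠ 1 := fun e => by
    have := orderOf_dvd_of_pow_eq_one e; rw [hx] at this; norm_num at this
  have hs5 := sylow_support hP (pow_mem hxP 5) hx5
  rw [← hσ5] at hs5
  have hσM : σ ∈ M := hCM (mul_mem (Subgroup.mem_centralizer_singleton_iff.2 rfl) y'.2)
  have hσP : σ • P = P := Sylow.smul_eq_iff_mem_normalizer.2 hσM
  have hsupp : (f σ).support = Finset.univ.erase P := by
    refine le_antisymm (fun Q hQ => Finset.mem_erase.2 ⟨fun e => ?_, Finset.mem_univ _⟩) ?_
    · rw [Perm.mem_support, e] at hQ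
      exact hQ hσP
    · intro Q hQ
      rw [← hs5, map_pow] at hQ
      exact Perm.support_pow_le _ _ hQ
  have hscard : (f σ).support.card = 35 := by
    rw [hsupp, Finset.card_erase_of_mem (Finset.mem_univ _), Finset.card_univ, ← Nat.card_eq_fintype_card, hn]
  have hct : (f σ).cycleType = {35} := by
    refine cycleType_single (p := 7) (q := 5) (by norm_num) (by norm_num)
      (by rw [orderOf_injective f hf, hσ]) hscard fun Q hQ e => ?_
    rw [← Perm.mem_support, hsupp, ← hs5, Perm.mem_support, map_pow] at hQ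
    exact hQ e
  have hcyc : (f σ).IsCycle := Perm.card_cycleType_eq_one.1 (by rw [hct]; rfl)
  have hCσ : Subgroup.centralizer ({σ} : Set G) = Subgroup.zpowers σ := by
    refine (Subgroup.eq_of_le_of_card_ge ?_ ?_).symm
    · rw [Subgroup.zpowers_le, Subgroup.mem_centralizer_singleton_iff]
    · rw [Nat.card_zpowers, hσ]
      refine Nat.le_of_dvd (by norm_num) ?_
      have := card_centralizer_dvd f hf σ
      rwa [card_centralizer_single hct (by rw [← Nat.card_eq_fintype_card, hn])] at this
  set Z := Subgroup.zpowers σ with hZ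
  have hZcard : Nat.card Z = 35 := by rw [hZ, Nat.card_zpowers, hσ]
  have hσC : σ ∈ C := mul_mem (Subgroup.mem_centralizer_singleton_iff.2 rfl) y'.2
  have hZC : Z ≤ C := Subgroup.zpowers_le.2 hσC
  have hidx : (Z.subgroupOf C).index = 2 := by
    have := (Z.subgroupOf C).card_mul_index
    rw [Nat.card_congr (Subgroup.subgroupOfEquivOfLe hZC).toEquiv, hZcard, hC] at this
    omega
  -- elements of the normalizer of `P` normalise `Z`
  have hnorm : ∀ s ∈ M, s * σ * s⁻¹ ∈ Z := by
    intro s hs
    have hsx : ∀ z ∈ C, s * z * s⁻¹ ∈ C := by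
      intro z hz
      rw [hCdef, Subgroup.mem_centralizer_singleton_iff]
      have hxs : s⁻¹ * x * s ∈ (P : Subgroup G) := by
        have := (Subgroup.mem_normalizer_iff.1 (M.inv_mem hs) x).1 hxP
        rwa [inv_inv] at this
      rw [← hPx] at hxs
      obtain ⟨i, hi⟩ := Subgroup.mem_zpowers_iff.1 hxs
      have hc : Commute z (x ^ i) := Commute.zpow_right (Subgroup.mem_centralizer_singleton_iff.1 hz) i
      rw [hi] at hc
      calc s * z * s⁻¹ * x = s * (z * (s⁻¹ * x * s)) * s⁻¹ := by group
        _ = s * ((s⁻¹ * x * s) * z) * s⁻¹ := by rw [hc.eq]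
        _ = _ := by group
    have hm := hsx σ hσC
    have h2 := Subgroup.sq_mem_of_index_two hidx ⟨_, hm⟩
    rw [Subgroup.mem_subgroupOf] at h2
    have h35 : (s * σ * s⁻¹) ^ 35 = 1 := by
      rw [conj_pow, show σ ^ 35 = 1 from hσ ▸ pow_orderOf_eq_one σ, mul_one, mul_inv_cancel]
    have : s * σ * s⁻¹ = ((s * σ * s⁻¹) ^ 2) ^ 18 := by
      rw [← pow_mul, show 2 * 18 = 35 + 1 from rfl, pow_add, h35, one_mul, pow_one]
    rw [this]
    exact pow_mem (by simpa using h2) 18
  -- involutions of `M` centralise `x` and fix exactly eight points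
  have hinv : ∀ s ∈ M, orderOf s = 2 →
      s ∈ C ∧ (Finset.univ.filter fun Q : Sylow 7 G => s • Q = Q).card = 8 := by
    intro s hs hs2
    have hss : s * s = 1 := by rw [← sq, ← hs2]; exact pow_orderOf_eq_one s
    have hsi : s⁻¹ = s := inv_eq_of_mul_eq_one_right hss
    have hsP : s • P = P := Sylow.smul_eq_iff_mem_normalizer.2 hs
    set F := Finset.univ.filter (fun Q : Sylow 7 G => s • Q = Q) with hF
    have hPF : P ∈ F := Finset.mem_filter.2 ⟨Finset.mem_univ _, hsP⟩
    have hswap : ∀ Q : Sylow 7 G, s • s • Q = Q := fun Q => by rw [← mul_smul, hss, one_smul]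
    have hfs : orderOf (f s) = 2 := by rw [orderOf_injective f hf, hs2]
    have hFs : F = (f s).supportᶜ := by
      ext Q; simp [hF, hfdef, Perm.mem_support, MulAction.toPermHom_apply, MulAction.toPerm_apply]
    obtain ⟨m, hm⟩ := Perm.cycleType_prime_order (σ := f s) (by rw [hfs]; norm_num)
    rw [hfs] at hm
    have hsum := Perm.sum_cycleType (f s)
    rw [hm, Multiset.sum_replicate, smul_eq_mul] at hsum
    have hsign : Perm.sign (f s) = 1 := SmallOrder.sign_eq_one hG f s
    rw [Perm.sign_of_cycleType, hm, Multiset.sum_replicate, Multiset.card_replicate, smul_eq_mul,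
      neg_one_pow_eq_one_iff_even (by decide)] at hsign
    obtain ⟨j, hj⟩ := hsign
    have hFc : F.card + (f s).support.card = 36 := by
      have := (f s).support.card_compl_add_card
      rw [← hFs] at this
      rw [this, ← Nat.card_eq_fintype_card, hn]
    have hF4 : F.card % 4 = 0 := by omega
    obtain ⟨Q0, hQ0, hQ0P⟩ := Finset.exists_mem_ne (show 1 < F.card by
      have : 0 < F.card := Finset.card_pos.2 ⟨P, hPF⟩
      omega) P
    have hQ0s : s • Q0 = Q0 := (Finset.mem_filter.1 hQ0).2
    have hmv : (f σ) Q0 ≠ Q0 := by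
      rw [← Perm.mem_support, hsupp]
      exact Finset.mem_erase.2 ⟨hQ0P, Finset.mem_univ _⟩
    set W := Z ⊓ Subgroup.centralizer ({s} : Set G) with hW
    have hfree : ∀ z ∈ Z, z • Q0 = Q0 → z = 1 := by
      intro z hz e
      obtain ⟨i, rfl⟩ := (Submonoid.mem_powers_iff _ _).1 (mem_powers_iff_mem_zpowers.2 hz)
      refine hf ?_
      rw [map_pow, map_one]
      refine (hcyc.pow_eq_one_iff' hmv).2 ?_
      rw [← map_pow]
      exact e
    have htrans : ∀ Q : Sylow 7 G, Q ≠ P → ∃ z ∈ Z, z • Q0 = Q := by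
      intro Q hQ
      have : (f σ) Q ≠ Q := by
        rw [← Perm.mem_support, hsupp]; exact Finset.mem_erase.2 ⟨hQ, Finset.mem_univ _⟩
      obtain ⟨i, hi⟩ := hcyc.exists_pow_eq hmv this
      exact ⟨σ ^ i, Subgroup.npow_mem_zpowers σ i, by rw [← map_pow] at hi; exact hi⟩
    have hzs : ∀ z ∈ Z, s * z * s⁻¹ ∈ Z := by
      intro z hz
      obtain ⟨i, rfl⟩ := Subgroup.mem_zpowers_iff.1 hz
      rw [← conj_zpow]
      exact Z.zpow_mem (hnorm s hs) i
    have hcount : F.card = Nat.card W + 1 := by
      rw [← Finset.card_erase_add_one hPF]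
      congr 1
      rw [Nat.card_eq_fintype_card]
      refine (Finset.card_bij (fun (z : W) _ => (z : G) • Q0) ?_ ?_ ?_).symm
      · rintro ⟨z, hz, hzc⟩ -
        refine Finset.mem_erase.2 ⟨fun e => hQ0P ?_, Finset.mem_filter.2 ⟨Finset.mem_univ _, ?_⟩⟩
        · have : z • P = P := Sylow.smul_eq_iff_mem_normalizer.2 (hCM (hZC hz))
          exact smul_left_cancel z (e.trans this.symm)
        · show s • z • Q0 = z • Q0
          rw [← mul_smul, ← Subgroup.mem_centralizer_singleton_iff.1 hzc, mul_smul, hQ0s]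
      · rintro ⟨a, ha, hac⟩ - ⟨b, hb, hbc⟩ - e
        refine Subtype.ext (eq_of_inv_mul_eq_one ?_)
        refine hfree _ (Z.mul_mem (Z.inv_mem ha) hb) ?_
        simp only at e
        rw [mul_smul, ← e, inv_smul_smul]
      · intro Q hQ
        obtain ⟨hQP, hQF⟩ := Finset.mem_erase.1 hQ
        have hQs := (Finset.mem_filter.1 hQF).2
        obtain ⟨z, hz, rfl⟩ := htrans Q hQP
        refine ⟨⟨z, hz, ?_⟩, Finset.mem_univ _, rfl⟩
        have h1 : (z⁻¹ * (s * z * s⁻¹)) • Q0 = Q0 := by
          rw [mul_smul, mul_smul, hsi, hQ0s, mul_smul, hQs, inv_smul_smul]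
        have h2 := eq_of_inv_mul_eq_one (hfree _ (Z.mul_mem (Z.inv_mem hz) (hzs z hz)) h1)
        refine Subgroup.mem_centralizer_singleton_iff.2 ?_
        calc z * s = (s * z * s⁻¹) * s := by rw [← h2]
          _ = s * z := by group
    have hWd : Nat.card W ∣ 35 := hZcard ▸ Subgroup.card_dvd_of_le inf_le_left
    have hW35 : Nat.card W ≠ 35 := by
      intro e
      have hWZ : W = Z := Subgroup.eq_of_le_of_card_ge inf_le_left (by rw [e, hZcard])
      have : σ ∈ W := hWZ ▸ Subgroup.mem_zpowers σ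
      have hsσ : s ∈ Subgroup.centralizer ({σ} : Set G) :=
        Subgroup.mem_centralizer_singleton_iff.2 (Subgroup.mem_centralizer_singleton_iff.1 this.2).symm
      rw [hCσ] at hsσ
      have := Subgroup.orderOf_dvd_natCard _ hsσ
      rw [hs2, hZcard] at this
      norm_num at this
    have hW7 : Nat.card W = 7 := by
      have hle : Nat.card W ≤ 35 := Nat.le_of_dvd (by norm_num) hWd
      have h0 : 0 < Nat.card W := Nat.card_pos
      interval_cases hc : Nat.card W <;> omega
    refine ⟨?_, by rw [hcount, hW7]⟩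
    have hWx : x ∈ W := by
      obtain ⟨w', hw'⟩ := exists_prime_orderOf_dvd_card' (G := W) 7 (by rw [hW7])
      rw [← Subgroup.orderOf_coe] at hw'
      obtain ⟨i, hi⟩ := (Submonoid.mem_powers_iff _ _).1 (mem_powers_iff_mem_zpowers.2 w'.2.1)
      have hsame : Subgroup.zpowers x = Subgroup.zpowers (w' : G) := by
        refine (Subgroup.eq_of_le_of_card_ge (Subgroup.zpowers_le.2 ?_)
          (by rw [Nat.card_zpowers, Nat.card_zpowers, hx, hw'])).symm
        have h1 : (w' : G) ^ 7 = 1 := hw' ▸ pow_orderOf_eq_one _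
        rw [← hi, ← pow_mul] at h1
        have hd := orderOf_dvd_of_pow_eq_one h1
        rw [hσ] at hd
        obtain ⟨r, rfl⟩ : 5 ∣ i := (Nat.Coprime.dvd_of_dvd_mul_right (by norm_num) ((dvd_mul_right 5 7).trans hd))
        rw [← hi, pow_mul, hσ5, ← pow_mul]
        exact Subgroup.npow_mem_zpowers x _
      exact Subgroup.zpowers_le.2 w'.2 (hsame ▸ Subgroup.mem_zpowers x)
    exact Subgroup.mem_centralizer_singleton_iff.2 (Subgroup.mem_centralizer_singleton_iff.1 hWx.2).symm
  -- the class of `t` meets `M` in an odd number of elements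
  set K := Finset.univ.filter (fun s : G => IsConj t s) with hK
  set m : Sylow 7 G → ℕ := fun Q => (K.filter fun s => s • Q = Q).card with hm
  have hKo : ∀ s ∈ K, orderOf s = 2 := by
    intro s hs
    obtain ⟨c, rfl⟩ := isConj_iff.1 (Finset.mem_filter.1 hs).2
    rw [← MulAut.conj_apply, MulEquiv.orderOf_eq, ht]
  have hmconst : ∀ Q, m Q = m P := by
    intro Q
    obtain ⟨g, rfl⟩ := MulAction.exists_smul_eq G P Q
    refine Finset.card_bij (fun s _ => g⁻¹ * s * g) ?_ ?_ ?_
    · intro s hs
      obtain ⟨h1, h2⟩ := Finset.mem_filter.1 hs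
      refine Finset.mem_filter.2 ⟨Finset.mem_filter.2 ⟨Finset.mem_univ _,
        (Finset.mem_filter.1 h1).2.trans (isConj_iff.2 ⟨g⁻¹, by group⟩)⟩, ?_⟩
      rw [mul_smul, mul_smul, h2, inv_smul_smul]
    · intro a _ b _ e
      exact mul_left_cancel (mul_right_cancel e)
    · intro s hs
      obtain ⟨h1, h2⟩ := Finset.mem_filter.1 hs
      refine ⟨g * s * g⁻¹, Finset.mem_filter.2 ⟨Finset.mem_filter.2 ⟨Finset.mem_univ _,
        (Finset.mem_filter.1 h1).2.trans (isConj_iff.2 ⟨g, rfl⟩)⟩, ?_⟩, by group⟩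
      rw [mul_smul, mul_smul, inv_smul_smul, h2]
  have hfix8 : ∀ s ∈ K, (Finset.univ.filter fun Q : Sylow 7 G => s • Q = Q).card = 8 := by
    intro s hs
    obtain ⟨c, rfl⟩ := isConj_iff.1 (Finset.mem_filter.1 hs).2
    rw [← (hinv t (hCM t'.2) ht).2]
    refine (Finset.card_bij (fun Q _ => c • Q) ?_ ?_ ?_).symm
    · intro Q hQ
      refine Finset.mem_filter.2 ⟨Finset.mem_univ _, ?_⟩
      rw [mul_smul, mul_smul, inv_smul_smul, (Finset.mem_filter.1 hQ).2]
    · intro a _ b _ e
      exact smul_left_cancel c e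
    · intro Q hQ
      refine ⟨c⁻¹ • Q, Finset.mem_filter.2 ⟨Finset.mem_univ _, ?_⟩, smul_inv_smul c Q⟩
      have := (Finset.mem_filter.1 hQ).2
      rw [mul_smul, mul_smul] at this
      rw [eq_inv_smul_iff, this]
  have hdouble : 36 * m P = 8 * K.card := by
    have e1 : ∑ Q : Sylow 7 G, m Q = ∑ s ∈ K, (Finset.univ.filter fun Q : Sylow 7 G => s • Q = Q).card := by
      simp only [hm, Finset.card_filter]
      exact Finset.sum_comm
    rw [Finset.sum_congr rfl (fun Q _ => hmconst Q), Finset.sum_const, Finset.card_univ,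
      ← Nat.card_eq_fintype_card, hn, Finset.sum_congr rfl hfix8, Finset.sum_const, smul_eq_mul, smul_eq_mul] at e1
    omega
  have hodd : m P % 2 = 1 := by
    -- conjugation by `t` is an involution of this set with `t` as only fixed point
    set S := K.filter (fun s => s • P = P) with hS
    have htS : t ∈ S := Finset.mem_filter.2 ⟨Finset.mem_filter.2 ⟨Finset.mem_univ _, IsConj.refl t⟩,
      Sylow.smul_eq_iff_mem_normalizer.2 (hCM t'.2)⟩
    have htt : t * t = 1 := by rw [← sq, ← ht]; exact pow_orderOf_eq_one t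
    have hti : t⁻¹ = t := inv_eq_of_mul_eq_one_right htt
    have hz : ∑ s ∈ S.erase t, (1 : ZMod 2) = 0 := by
      refine Finset.sum_involution (fun s _ => t * s * t) (fun _ _ => CharTwo.add_self_eq_zero _) ?_ ?_ ?_
      · intro s hs _ e
        obtain ⟨hst, hs'⟩ := Finset.mem_erase.1 hs
        obtain ⟨hsK, hsP⟩ := Finset.mem_filter.1 hs'
        have hcomm : Commute t s := by
          show t * s = s * t
          calc t * s = t * s * t * t := by rw [mul_assoc _ t t, htt, mul_one]
            _ = s * t := by rw [e]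
        obtain ⟨hsC, -⟩ := hinv s (Sylow.smul_eq_iff_mem_normalizer.1 hsP) (hKo s hsK)
        have hss : s * s = 1 := by rw [← sq, ← hKo s hsK]; exact pow_orderOf_eq_one s
        have h2 : (t * s) * (t * s) = 1 := by
          rw [mul_assoc, ← mul_assoc s t s, ← hcomm.eq, mul_assoc t s s, hss, mul_one, htt]
        have hnot : ∀ w ∈ C, orderOf w = 2 → w ∉ Z := fun w _ hw hwZ => by
          have := Subgroup.orderOf_dvd_natCard _ hwZ
          rw [hw, hZcard] at this; norm_num at this
        have htsZ : t * s ∈ Z := by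
          have := (Subgroup.mul_mem_iff_of_index_two hidx (a := ⟨t, t'.2⟩) (b := ⟨s, hsC⟩)).2
            (by
              simp only [Subgroup.mem_subgroupOf]
              exact iff_of_false (hnot t t'.2 ht) (hnot s hsC (hKo s hsK)))
          simpa [Subgroup.mem_subgroupOf] using this
        have hd := Subgroup.orderOf_dvd_natCard _ htsZ
        rw [hZcard] at hd
        have hd2 : orderOf (t * s) ∣ 2 := orderOf_dvd_of_pow_eq_one (by rw [sq, h2])
        have h1 : t * s = 1 := orderOf_eq_one_iff.1 (Nat.eq_one_of_dvd_coprimes (by norm_num : Nat.Coprime 35 2) hd hd2)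
        exact hst (by rw [← inv_eq_of_mul_eq_one_right h1, hti])
      · intro s hs
        obtain ⟨hst, hs'⟩ := Finset.mem_erase.1 hs
        obtain ⟨hsK, hsP⟩ := Finset.mem_filter.1 hs'
        refine Finset.mem_erase.2 ⟨fun e => hst ?_, Finset.mem_filter.2 ⟨Finset.mem_filter.2 ⟨Finset.mem_univ _,
          (Finset.mem_filter.1 hsK).2.trans (isConj_iff.2 ⟨t, by rw [hti]⟩)⟩, ?_⟩⟩
        · calc s = t * (t * s * t) * t := by
                rw [show t * (t * s * t) * t = (t * t) * s * (t * t) by group, htt, one_mul, mul_one]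
            _ = t := by rw [e, htt, one_mul]
        · have htP : t • P = P := Sylow.smul_eq_iff_mem_normalizer.2 (hCM t'.2)
          rw [mul_smul, mul_smul, htP, hsP, htP]
      · intro s hs
        show t * (t * s * t) * t = s
        rw [show t * (t * s * t) * t = (t * t) * s * (t * t) by group, htt, one_mul, mul_one]
    rw [Finset.sum_const, nsmul_eq_mul, mul_one, ZMod.natCast_eq_zero_iff] at hz
    have hsplit := Finset.card_erase_add_one htS
    show S.card % 2 = 1
    omega
  omega

end Cfsg.Agent.SmallOrder.O5040
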